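import Cfsg.Agent.Lib.CoreFree.Rudvalis.Flag

/-! # The quotient `T/W` and the centre of `W` -/

set_option autoImplicit false

namespace CfsgLib.CoreFree.Rudvalis

/-- Flag automorphisms of `2³` as triples. -/
abbrev D := Fin 2 × Fin 2 × Fin 2

def dmul (g h : D) : D := (g.1 + h.1, g.2.1 + h.2.1 + g.1 * h.2.2, g.2.2 + h.2.2)
def dinv (g : D) : D := (g.1, g.2.1 + g.1 * g.2.2, g.2.2)
def ldiv (g h : D) : D := dmul (dinv g) h

theorem dmul_ldiv : ∀ g h : D, dmul g (ldiv g h) = h := by decide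
theorem ldiv_dmul : ∀ g h : D, ldiv g (dmul g h) = h := by decide
theorem ldiv_eq_zero_iff : ∀ g h : D, ldiv g h = (0, 0, 0) ↔ g = h := by decide
theorem ldiv_zero : ∀ g : D, ldiv g (0, 0, 0) = dinv g := by decide

/-- The isomorphism with the dihedral group of order eight. -/
def toDihedral (g : D) : DihedralGroup 4 :=
  match g with
  | (0, 0, 0) => .r 0
  | (1, 0, 1) => .r 1
  | (0, 1, 0) => .r 2
  | (1, 1, 1) => .r 3
  | (1, 0, 0) => .sr 0
  | (0, 1, 1) => .sr 1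
  | (1, 1, 0) => .sr 2
  | (0, 0, 1) => .sr 3

theorem toDihedral_mul : ∀ g h : D, toDihedral (dmul g h) = toDihedral g * toDihedral h := by decide
theorem toDihedral_surj : ∀ d : DihedralGroup 4, ∃ g, toDihedral g = d := by decide
theorem toDihedral_eq_one : ∀ g : D, toDihedral g = 1 ↔ g = (0, 0, 0) := by decide

theorem eight_list (f : D → ZMod 2) :
    ([((0 : Fin 2), (0 : Fin 2), (0 : Fin 2)), (0, 0, 1), (0, 1, 0), (0, 1, 1), (1, 0, 0), (1, 0, 1), (1, 1, 0), (1, 1, 1)] : List D).map f =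
      [f (0, 0, 0), f (0, 0, 1), f (0, 1, 0), f (0, 1, 1), f (1, 0, 0), f (1, 0, 1), f (1, 1, 0), f (1, 1, 1)] := rfl

variable {T : Type*} [Group T] [Finite T]

local notation "Z" => Subgroup.upperCentralSeries T

/-- `t` acts on the chosen basis of `Z₃` with coordinates `g`. -/
def IsAct (z a b t : T) (g : D) : Prop :=
  t * a * t⁻¹ = a * z ^ (g.1 : ℕ) ∧ t * b * t⁻¹ = b * a ^ (g.2.2 : ℕ) * z ^ (g.2.1 : ℕ)

theorem pow_fin_add {x : T} (hx : x * x = 1) (i j : Fin 2) : x ^ ((i + j : Fin 2) : ℕ) = x ^ (i : ℕ) * x ^ (j : ℕ) := by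
  fin_cases i <;> fin_cases j <;> simp [hx]

theorem pow_fin_mul {x : T} (i j : Fin 2) : x ^ ((i * j : Fin 2) : ℕ) = (x ^ (i : ℕ)) ^ (j : ℕ) := by
  fin_cases i <;> fin_cases j <;> simp

namespace Hyp

variable {W : Subgroup T} (h : Hyp T W)
include h

theorem exists_act {z a b : T} (hz : z ∈ Z 1) (hz1 : z ≠ 1) (ha : a ∈ Z 2) (ha' : a ∉ Z 1) (hb : b ∈ Z 3)
    (t : T) : ∃ g : D, IsAct z a b t g := by
  have key : ∀ y ∈ Z 1, ∃ i : Fin 2, y = z ^ (i : ℕ) := fun y hy => by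
    rcases h.one_cases hz hz1 hy with e | e
    · exact ⟨0, by simpa using e⟩
    · exact ⟨1, by simpa using e⟩
  obtain ⟨i, hi⟩ := key _ (h.conj_comm_mem ha t)
  have hi' : t * a * t⁻¹ = a * z ^ (i : ℕ) := by
    have e := mul_inv_eq_iff_eq_mul.1 hi
    rw [e, ← h.central ((Z 1).pow_mem hz _) a]
  set c := t * b * t⁻¹ * b⁻¹ with hc
  have hcm : c ∈ Z 2 := h.conj_comm_mem hb t
  have hcb : t * b * t⁻¹ = c * b := by rw [hc]; group
  have hc3 : c * b = b * c := (h.comm_Z3 (h.Z3_le hb) (ucs_le_succ 2 hcm)).symm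
  have haa : a * a = 1 := h.Z3_sq (ucs_le_succ 2 ha)
  rcases h.mem_or (i := 1) (by omega) ha ha' hcm with e | e
  · obtain ⟨j, hj⟩ := key _ e
    exact ⟨(i, j, 0), hi', by rw [hcb, hc3, hj]; simp⟩
  · obtain ⟨j, hj⟩ := key _ e
    refine ⟨(i, j, 1), hi', ?_⟩
    rw [hcb, hc3, ← hj]
    simp [mul_assoc, ← mul_assoc a a, haa]

theorem isAct_unique {z a b : T} (hz : z ∈ Z 1) (hz1 : z ≠ 1) (ha' : a ∉ Z 1) {t : T}
    {g g' : D} (hg : IsAct z a b t g) (hg' : IsAct z a b t g') : g = g' := by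
  obtain ⟨x, y, p⟩ := g
  obtain ⟨x', y', p'⟩ := g'
  have key : ∀ i j : Fin 2, z ^ (i : ℕ) = z ^ (j : ℕ) → i = j := by
    intro i j e
    fin_cases i <;> fin_cases j <;> simp at e ⊢
    · exact hz1 e.symm
    · exact hz1 e
  have hx : x = x' := key _ _ (mul_left_cancel (hg.1.symm.trans hg'.1))
  have e := hg.2.symm.trans hg'.2
  simp only [mul_assoc] at e
  have e' := mul_left_cancel e
  have hp : p = p' := by
    fin_cases p <;> fin_cases p' <;> simp at e' ⊢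
    · exact ha' (by rw [show a = z ^ (y : ℕ) * (z ^ (y' : ℕ))⁻¹ by rw [e']; group]; exact (Z 1).mul_mem ((Z 1).pow_mem hz _) ((Z 1).inv_mem ((Z 1).pow_mem hz _)))
    · exact ha' (by rw [show a = z ^ (y' : ℕ) * (z ^ (y : ℕ))⁻¹ by rw [← e']; group]; exact (Z 1).mul_mem ((Z 1).pow_mem hz _) ((Z 1).inv_mem ((Z 1).pow_mem hz _)))
  subst hp
  rw [hx, key _ _ (mul_left_cancel e')]

theorem isAct_mul {z a b : T} (hz : z ∈ Z 1) (ha : a ∈ Z 2) {t u : T} {g g' : D}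
    (hg : IsAct z a b t g) (hg' : IsAct z a b u g') : IsAct z a b (t * u) (dmul g g') := by
  obtain ⟨x, y, p⟩ := g
  obtain ⟨x', y', p'⟩ := g'
  have hzz : z * z = 1 := h.Z3_sq (Subgroup.upperCentralSeries_mono T (by norm_num) hz)
  obtain ⟨e1, e2⟩ := hg
  obtain ⟨f1, f2⟩ := hg'
  simp only at e1 e2 f1 f2
  have hcz : ∀ (n : ℕ) (v : T), v * z ^ n = z ^ n * v := fun n v => h.central ((Z 1).pow_mem hz n) v
  have hzt : ∀ n : ℕ, t * z ^ n * t⁻¹ = z ^ n := fun n => by rw [hcz n t, mul_inv_cancel_right]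
  constructor
  · show t * u * a * (t * u)⁻¹ = a * z ^ ((x + x' : Fin 2) : ℕ)
    calc t * u * a * (t * u)⁻¹ = t * (u * a * u⁻¹) * t⁻¹ := by group
      _ = (t * a * t⁻¹) * (t * z ^ (x' : ℕ) * t⁻¹) := by rw [f1]; group
      _ = _ := by rw [e1, hzt, pow_fin_add hzz, mul_assoc]
  · show t * u * b * (t * u)⁻¹ = b * a ^ ((p + p' : Fin 2) : ℕ) * z ^ ((y + y' + x * p' : Fin 2) : ℕ)
    calc t * u * b * (t * u)⁻¹ = t * (u * b * u⁻¹) * t⁻¹ := by group
      _ = (t * b * t⁻¹) * (t * a ^ (p' : ℕ) * t⁻¹) * (t * z ^ (y' : ℕ) * t⁻¹) := by rw [f2]; group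
      _ = b * a ^ (p : ℕ) * z ^ (y : ℕ) * (a * z ^ (x : ℕ)) ^ (p' : ℕ) * z ^ (y' : ℕ) := by
        rw [← conj_pow, e1, e2, hzt]
      _ = b * (a ^ (p : ℕ) * a ^ (p' : ℕ)) * (z ^ (y : ℕ) * z ^ (y' : ℕ) * (z ^ (x : ℕ)) ^ (p' : ℕ)) := by
        rw [(show Commute a (z ^ (x : ℕ)) from hcz _ a).mul_pow]
        simp only [← pow_mul, mul_assoc]
        rw [← mul_assoc (z ^ (y : ℕ)) (a ^ (p' : ℕ)), ← hcz _ (a ^ (p' : ℕ))]
        simp only [mul_assoc]
        rw [(show Commute (z ^ ((x : ℕ) * (p' : ℕ))) (z ^ (y' : ℕ)) from Commute.pow_pow_self z _ _).eq]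
      _ = _ := by
        rw [pow_fin_add hzz, pow_fin_add hzz, pow_fin_mul]
        rw [pow_fin_add (h.Z3_sq (ucs_le_succ 2 ha))]

/-- The action as a map to triples, with a section. -/
theorem exists_coordinates : ∃ (z a b : T) (κ : T → D) (σ : D → T),
    (z ∈ Z 1 ∧ z ≠ 1 ∧ a ∈ Z 2 ∧ a ∉ Z 1 ∧ b ∈ Z 3 ∧ b ∉ Z 2) ∧ (∀ t, IsAct z a b t (κ t)) ∧
      (∀ t u, κ (t * u) = dmul (κ t) (κ u)) ∧ (∀ t, t ∈ W ↔ κ t = (0, 0, 0)) ∧ (∀ g, κ (σ g) = g) ∧
      (∀ t, (σ (κ t))⁻¹ * t ∈ W) := by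
  classical
  haveI := h.W_normal
  obtain ⟨z, a, b, hz, hz1, ha, ha', hb, hb', hab⟩ := h.exists_basis
  choose κ hκ using h.exists_act hz hz1 ha ha' hb
  have hmul : ∀ t u, κ (t * u) = dmul (κ t) (κ u) := fun t u =>
    h.isAct_unique hz hz1 ha' (hκ _) (h.isAct_mul hz ha (hκ t) (hκ u))
  have hW : ∀ t, t ∈ W ↔ κ t = (0, 0, 0) := by
    intro t
    rw [h.mem_W_iff hz hz1 ha ha' hb hb']
    constructor
    · intro ⟨e1, e2⟩
      refine h.isAct_unique hz hz1 ha' (hκ t) ⟨?_, ?_⟩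
      · simp [e1]
      · simp [e2]
    · intro e
      have := hκ t
      rw [e] at this
      obtain ⟨e1, e2⟩ := this
      simp only [Fin.val_zero, pow_zero, mul_one] at e1 e2
      exact ⟨mul_inv_eq_iff_eq_mul.1 e1, mul_inv_eq_iff_eq_mul.1 e2⟩
  have hsame : ∀ t u, κ t = κ u → t⁻¹ * u ∈ W := by
    intro t u e
    rw [hW, hmul, ← e]
    have h1 : dmul (κ t⁻¹) (κ t) = (0, 0, 0) := by rw [← hmul, inv_mul_cancel]; exact (hW 1).1 W.one_mem
    exact h1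
  let f : T ⧸ W → D := fun q => κ q.out
  have hf : Function.Bijective f := by
    letI := Fintype.ofFinite (T ⧸ W)
    rw [Fintype.bijective_iff_injective_and_card]
    refine ⟨fun p q e => ?_, ?_⟩
    · rw [← QuotientGroup.out_eq' p, ← QuotientGroup.out_eq' q, QuotientGroup.eq]
      exact hsame _ _ e
    · rw [← Nat.card_eq_fintype_card, ← Subgroup.index_eq_card, h.sizes.2.1]
      rfl
  choose q hq using hf.2
  exact ⟨z, a, b, κ, fun g => (q g).out, ⟨hz, hz1, ha, ha', hb, hb'⟩, hκ, hmul, hW, hq,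
    fun t => hsame _ _ (hq (κ t))⟩

theorem quotient_dihedral : ∃ (_ : W.Normal), Nonempty (T ⧸ W ≃* DihedralGroup 4) := by
  obtain ⟨z, a, b, κ, σ, -, -, hmul, hW, hκσ, -⟩ := h.exists_coordinates
  haveI := h.W_normal
  let π : T →* DihedralGroup 4 := MonoidHom.mk' (fun t => toDihedral (κ t)) fun t u => by
    rw [hmul, toDihedral_mul]
  have hker : π.ker = W := by
    ext t
    rw [MonoidHom.mem_ker, hW]
    exact toDihedral_eq_one _
  have hsurj : Function.Surjective π := fun d => by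
    obtain ⟨g, rfl⟩ := toDihedral_surj d
    exact ⟨σ g, congrArg toDihedral (hκσ g)⟩
  exact ⟨inferInstance, ⟨(QuotientGroup.quotientMulEquivOfEq hker.symm).trans (QuotientGroup.quotientKerEquivOfSurjective π hsurj)⟩⟩

end Hyp
end CfsgLib.CoreFree.Rudvalis
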