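import Mathlib

/-! # Elementary abelian sections as submodules of the regular module -/

set_option autoImplicit false

namespace CfsgLib.CoreFree.Rudvalis

variable {T : Type*} [Group T] [Finite T]

/-- In an elementary abelian section `W/M`, an element outside `M` is detected by a functional. -/
theorem exists_max_avoid (W M : Subgroup T) (hMW : M ≤ W) (hsq : ∀ w ∈ W, w * w ∈ M)
    (hMn : ∀ w ∈ W, ∀ m ∈ M, w * m * w⁻¹ ∈ M) {e : T} (he : e ∈ W) (he' : e ∉ M) :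
    ∃ H : Subgroup T, M ≤ H ∧ H ≤ W ∧ e ∉ H ∧ (∀ w ∈ W, w ∈ H ∨ e * w ∈ H) ∧
      ∀ w ∈ W, ∀ h ∈ H, w * h * w⁻¹ ∈ H := by
  classical
  have hcomm : ∀ u ∈ W, ∀ v ∈ W, u * v * u⁻¹ * v⁻¹ ∈ M := by
    intro u hu v hv
    rw [show u * v * u⁻¹ * v⁻¹ = (u * v * (u * v)) * ((v⁻¹ * (u⁻¹ * u⁻¹) * v⁻¹⁻¹) * (v⁻¹ * v⁻¹)) by group]
    exact M.mul_mem (hsq _ (W.mul_mem hu hv))
      (M.mul_mem (hMn _ (W.inv_mem hv) _ (hsq _ (W.inv_mem hu))) (hsq _ (W.inv_mem hv)))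
  obtain ⟨H, hH⟩ := (Set.toFinite {H : Subgroup T | M ≤ H ∧ H ≤ W ∧ e ∉ H}).exists_maximal ⟨M, le_rfl, hMW, he'⟩
  obtain ⟨hMH, hHW, heH⟩ := hH.prop
  have hnorm : ∀ w ∈ W, ∀ h ∈ H, w * h * w⁻¹ ∈ H := by
    intro w hw h hh
    rw [show w * h * w⁻¹ = (w * h * w⁻¹ * h⁻¹) * h by group]
    exact H.mul_mem (hMH (hcomm w hw h (hHW hh))) hh
  refine ⟨H, hMH, hHW, heH, fun w hw => ?_, hnorm⟩
  rw [or_iff_not_imp_left]
  intro hwH
  let K : Subgroup T :=
    { carrier := {x | x ∈ W ∧ (x ∈ H ∨ w * x ∈ H)}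
      one_mem' := ⟨W.one_mem, Or.inl H.one_mem⟩
      mul_mem' := by
        rintro x y ⟨hx, hx'⟩ ⟨hy, hy'⟩
        refine ⟨W.mul_mem hx hy, ?_⟩
        rcases hx' with hx' | hx' <;> rcases hy' with hy' | hy'
        · exact Or.inl (H.mul_mem hx' hy')
        · right
          rw [show w * (x * y) = (w * x * w⁻¹) * (w * y) by group]
          exact H.mul_mem (hnorm w hw x hx') hy'
        · right
          rw [← mul_assoc]
          exact H.mul_mem hx' hy'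
        · left
          rw [show x * y = (w⁻¹ * (w * x) * w⁻¹⁻¹) * ((w * w)⁻¹) * (w * y) by group]
          exact H.mul_mem (H.mul_mem (hnorm _ (W.inv_mem hw) _ hx') (H.inv_mem (hMH (hsq w hw)))) hy'
      inv_mem' := by
        rintro x ⟨hx, hx'⟩
        refine ⟨W.inv_mem hx, ?_⟩
        rcases hx' with hx' | hx'
        · exact Or.inl (H.inv_mem hx')
        · right
          rw [show w * x⁻¹ = (w * w) * (w⁻¹ * (w * x)⁻¹ * w⁻¹⁻¹) by group]
          exact H.mul_mem (hMH (hsq w hw)) (hnorm _ (W.inv_mem hw) _ (H.inv_mem hx')) }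
  have hHK : H < K := by
    refine SetLike.lt_iff_le_and_exists.2 ⟨fun h hh => ⟨hHW hh, Or.inl hh⟩, w, ?_, hwH⟩
    exact ⟨hw, Or.inr (hMH (hsq w hw))⟩
  have heK : e ∈ K := by
    by_contra h
    exact hHK.not_ge (hH.le_of_ge ⟨hMH.trans hHK.le, fun x hx => hx.1, h⟩ hHK.le)
  have h3 := hnorm _ (W.inv_mem hw) _ (heK.2.resolve_left heH)
  rwa [inv_inv, inv_mul_cancel_left] at h3

theorem exists_functional (W M : Subgroup T) (hMW : M ≤ W) (hsq : ∀ w ∈ W, w * w ∈ M)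
    (hMn : ∀ w ∈ W, ∀ m ∈ M, w * m * w⁻¹ ∈ M) {e : T} (he : e ∈ W) (he' : e ∉ M) :
    ∃ χ : T → ZMod 2, (∀ u ∈ W, ∀ v ∈ W, χ (u * v) = χ u + χ v) ∧ (∀ m ∈ M, χ m = 0) ∧ χ e = 1 := by
  classical
  obtain ⟨H, hMH, hHW, heH, hor, hnorm⟩ := exists_max_avoid W M hMW hsq hMn he he'
  refine ⟨fun x => if x ∈ H then 0 else 1, fun u hu v hv => ?_, fun m hm => if_pos (hMH hm), if_neg heH⟩
  simp only
  by_cases h1 : u ∈ H <;> by_cases h2 : v ∈ H
  · simp [h1, h2, H.mul_mem h1 h2]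
  · have : u * v ∉ H := fun h => h2 (by simpa using H.mul_mem (H.inv_mem h1) h)
    simp [h1, h2, this]
  · have : u * v ∉ H := fun h => h1 (by simpa using H.mul_mem h (H.inv_mem h2))
    simp [h1, h2, this]
  · have e1 := hnorm e he _ ((hor u hu).resolve_left h1)
    have e2 := (hor v hv).resolve_left h2
    have : u * v ∈ H := by
      have h3 := H.mul_mem ((hor u hu).resolve_left h1) ((hor v hv).resolve_left h2)
      have h4 : e * (u * e * u⁻¹) * e⁻¹ * e⁻¹ ∈ H := by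
        have h5 : u * e * u⁻¹ * e⁻¹ ∈ M := by
          rw [show u * e * u⁻¹ * e⁻¹ = (u * e * (u * e)) * ((e⁻¹ * (u⁻¹ * u⁻¹) * e⁻¹⁻¹) * (e⁻¹ * e⁻¹)) by group]
          exact M.mul_mem (hsq _ (W.mul_mem hu he))
            (M.mul_mem (hMn _ (W.inv_mem he) _ (hsq _ (W.inv_mem hu))) (hsq _ (W.inv_mem he)))
        have h6 := hMH (hMn e he _ h5)
        rwa [show e * (u * e * u⁻¹ * e⁻¹) * e⁻¹ = e * (u * e * u⁻¹) * e⁻¹ * e⁻¹ by group] at h6
      -- `e u e v = (e u e u⁻¹ e⁻¹ e⁻¹)(e e)(u v)`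
      rw [show e * u * (e * v) = (e * (u * e * u⁻¹) * e⁻¹ * e⁻¹) * (e * e) * (u * v) by group] at h3
      have h7 := H.mul_mem (H.inv_mem (H.mul_mem h4 (hMH (hsq e he)))) h3
      rwa [inv_mul_cancel_left] at h7
    simp only [h1, h2, this, if_true, if_false]
    decide

variable {I : Type*}

/-- The coordinates of `w` in the module induced from the functional `χ`. -/
def coord (χ : T → ZMod 2) (s : I → T) (w : T) : I → ZMod 2 := fun i => χ ((s i)⁻¹ * w * s i)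

theorem coord_mul (W : Subgroup T) [W.Normal] {χ : T → ZMod 2}
    (hadd : ∀ u ∈ W, ∀ v ∈ W, χ (u * v) = χ u + χ v) (s : I → T) {u v : T} (hu : u ∈ W) (hv : v ∈ W) :
    coord χ s (u * v) = coord χ s u + coord χ s v := by
  funext i
  show χ _ = χ _ + χ _
  rw [← hadd _ (‹W.Normal›.conj_mem' u hu (s i)) _ (‹W.Normal›.conj_mem' v hv (s i))]
  congr 1
  group

theorem mem_of_coord_eq_zero (W M : Subgroup T) [W.Normal] [M.Normal] (hMW : M ≤ W) {χ : T → ZMod 2}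
    (hadd : ∀ u ∈ W, ∀ v ∈ W, χ (u * v) = χ u + χ v) (hM : ∀ m ∈ M, χ m = 0) {e : T} (he : χ e = 1)
    (hmin : ∀ N : Subgroup T, N.Normal → M ≤ N → N ≤ W → ¬ N ≤ M → e ∈ N)
    (s : I → T) (hs : ∀ t : T, ∃ i, (s i)⁻¹ * t ∈ W) {w : T} (hw : w ∈ W) (h0 : coord χ s w = 0) : w ∈ M := by
  have h1 : χ 1 = 0 := hM 1 M.one_mem
  have hinv : ∀ u ∈ W, χ u⁻¹ = χ u := by
    intro u hu
    have := hadd u hu u⁻¹ (W.inv_mem hu)
    rw [mul_inv_cancel, h1] at this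
    have h2 : ∀ a b : ZMod 2, 0 = a + b → b = a := by decide
    exact h2 _ _ this
  have hconj : ∀ u ∈ W, ∀ v ∈ W, χ (u⁻¹ * v * u) = χ v := by
    intro u hu v hv
    rw [hadd _ (W.mul_mem (W.inv_mem hu) hv) _ hu, hadd _ (W.inv_mem hu) _ hv, hinv u hu]
    have h2 : ∀ a b : ZMod 2, a + b + a = b := by decide
    exact h2 _ _
  let N : Subgroup T :=
    { carrier := {x | x ∈ W ∧ ∀ t : T, χ (t⁻¹ * x * t) = 0}
      one_mem' := ⟨W.one_mem, fun t => by simpa using h1⟩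
      mul_mem' := by
        rintro x y ⟨hx, hx'⟩ ⟨hy, hy'⟩
        refine ⟨W.mul_mem hx hy, fun t => ?_⟩
        rw [show t⁻¹ * (x * y) * t = (t⁻¹ * x * t) * (t⁻¹ * y * t) by group,
          hadd _ (‹W.Normal›.conj_mem' x hx t) _ (‹W.Normal›.conj_mem' y hy t), hx', hy', add_zero]
      inv_mem' := by
        rintro x ⟨hx, hx'⟩
        refine ⟨W.inv_mem hx, fun t => ?_⟩
        rw [show t⁻¹ * x⁻¹ * t = (t⁻¹ * x * t)⁻¹ by group, hinv _ (‹W.Normal›.conj_mem' x hx t), hx'] }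
  have hN : N.Normal := ⟨fun x hx g => ⟨‹W.Normal›.conj_mem x hx.1 g, fun t => by
    rw [show t⁻¹ * (g * x * g⁻¹) * t = (g⁻¹ * t)⁻¹ * x * (g⁻¹ * t) by group]; exact hx.2 _⟩⟩
  have hMN : M ≤ N := fun m hm => ⟨hMW hm, fun t => hM _ (‹M.Normal›.conj_mem' m hm t)⟩
  have hwN : w ∈ N := by
    refine ⟨hw, fun t => ?_⟩
    obtain ⟨i, hi⟩ := hs t
    rw [show t⁻¹ * w * t = ((s i)⁻¹ * t)⁻¹ * ((s i)⁻¹ * w * s i) * ((s i)⁻¹ * t) by group,
      hconj _ hi _ (‹W.Normal›.conj_mem' w hw (s i))]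
    exact congrFun h0 i
  by_contra hwM
  have h2 := (hmin N hN hMN (fun x hx => hx.1) (fun h => hwM (h hwN))).2 1
  rw [inv_one, one_mul, mul_one, he] at h2
  exact one_ne_zero h2

/-- The coordinate map as a homomorphism. -/
def coordHom (W : Subgroup T) [W.Normal] {χ : T → ZMod 2}
    (hadd : ∀ u ∈ W, ∀ v ∈ W, χ (u * v) = χ u + χ v) (s : I → T) : W →* Multiplicative (I → ZMod 2) :=
  MonoidHom.mk' (fun w => Multiplicative.ofAdd (coord χ s w))
    fun u v => by rw [← ofAdd_add, ← coord_mul W hadd s u.2 v.2]; rfl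

theorem card_le_and_surjective [Finite I] (W M : Subgroup T) [W.Normal] [M.Normal] (hMW : M ≤ W) {χ : T → ZMod 2}
    (hadd : ∀ u ∈ W, ∀ v ∈ W, χ (u * v) = χ u + χ v) (hM : ∀ m ∈ M, χ m = 0) {e : T} (he : χ e = 1)
    (hmin : ∀ N : Subgroup T, N.Normal → M ≤ N → N ≤ W → ¬ N ≤ M → e ∈ N)
    (s : I → T) (hs : ∀ t : T, ∃ i, (s i)⁻¹ * t ∈ W) :
    Nat.card W ≤ Nat.card M * 2 ^ Nat.card I ∧
      (Nat.card W = Nat.card M * 2 ^ Nat.card I → ∀ f : I → ZMod 2, ∃ w ∈ W, coord χ s w = f) := by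
  set φ := coordHom W hadd s with hφ
  have hker : φ.ker = M.subgroupOf W := by
    ext w
    rw [MonoidHom.mem_ker, Subgroup.mem_subgroupOf]
    constructor
    · intro h
      exact mem_of_coord_eq_zero W M hMW hadd hM he hmin s hs w.2 (congrArg Multiplicative.toAdd h)
    · intro h
      refine congrArg Multiplicative.ofAdd (funext fun i => ?_)
      exact hM _ (‹M.Normal›.conj_mem' _ h _)
  have hc : Nat.card W = Nat.card M * Nat.card φ.range := by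
    rw [← φ.ker.card_mul_index, Subgroup.index_ker, hker,
      Nat.card_congr (Subgroup.subgroupOfEquivOfLe hMW).toEquiv]
  have htgt : Nat.card (Multiplicative (I → ZMod 2)) = 2 ^ Nat.card I := by
    rw [Nat.card_congr Multiplicative.toAdd, Nat.card_fun, Nat.card_zmod]
  have hrle := Subgroup.card_le_card_group φ.range
  rw [htgt] at hrle
  refine ⟨hc ▸ Nat.mul_le_mul_left _ hrle, fun heq f => ?_⟩
  have : φ.range = ⊤ := Subgroup.eq_top_of_card_eq _ (by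
    rw [htgt]
    exact Nat.eq_of_mul_eq_mul_left Nat.card_pos (hc.symm.trans heq))
  obtain ⟨w, hw⟩ := (this ▸ Subgroup.mem_top (Multiplicative.ofAdd f) : Multiplicative.ofAdd f ∈ φ.range)
  exact ⟨w, w.2, congrArg Multiplicative.toAdd hw⟩

end CfsgLib.CoreFree.Rudvalis
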