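import Cfsg.Agent.Lib.CoreFree.Rudvalis.Series
import Cfsg.Agent.Lib.CoreFree.Rudvalis.Induced

/-! # The action on `Z₃(T)` and the size of `W = C_T(Z₃(T))` -/

set_option autoImplicit false

open scoped commutatorElement

namespace CfsgLib.CoreFree.Rudvalis

variable {T : Type*} [Group T] [Finite T]

local notation "Z" => Subgroup.upperCentralSeries T

/-- The hypotheses on a two-group with small fourth centre. -/
structure Hyp (T : Type*) [Group T] (W : Subgroup T) : Prop where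
  isTwo : IsPGroup 2 T
  large : 2 ^ 14 ≤ Nat.card T
  four : Nat.card (Subgroup.upperCentralSeries T 4) = 16
  eqW : W = Subgroup.centralizer ((Subgroup.upperCentralSeries T 3 : Subgroup T) : Set T)
  frat : Nat.card (frattini W) ≤ 8
  avoid : ∀ U : Subgroup W, U.index ≤ 16 → frattini W ≤ U

theorem card_le_two_mul {W Q : Subgroup T} (c : T) (h : ∀ x ∈ W, x ∈ Q ∨ c * x ∈ Q) :
    Nat.card W ≤ 2 * Nat.card Q := by
  classical
  let f : W → Bool × Q := fun x => if hx : (x : T) ∈ Q then (true, ⟨x, hx⟩) else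
    (false, ⟨c * x, (h x x.2).resolve_left hx⟩)
  have hf : Function.Injective f := by
    intro x y hxy
    by_cases hx : (x : T) ∈ Q <;> by_cases hy : (y : T) ∈ Q <;> simp [f, hx, hy] at hxy
    · exact hxy
    · exact hxy
  have := Nat.card_le_card_of_injective f hf
  rwa [Nat.card_prod, Nat.card_eq_fintype_card (α := Bool), Fintype.card_bool] at this

namespace Hyp

variable {W : Subgroup T} (h : Hyp T W)
include h

theorem big : 16 < Nat.card T := lt_of_lt_of_le (by norm_num) h.large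

theorem card_Z {i : ℕ} (hi : i ≤ 4) : Nat.card (Z i) = 2 ^ i := card_ucs h.isTwo h.four h.big hi

theorem Z_double {i : ℕ} (hi : i ≤ 3) : Nat.card (Z (i + 1)) = 2 * Nat.card (Z i) := by
  rw [h.card_Z (by omega), h.card_Z (by omega), pow_succ, mul_comm]

theorem mem_or {i : ℕ} (hi : i ≤ 3) {x y : T} (hx : x ∈ Z (i + 1)) (hx' : x ∉ Z i) (hy : y ∈ Z (i + 1)) :
    y ∈ Z i ∨ x * y ∈ Z i := mem_or_mem (h.Z_double hi) hx hx' hy

theorem exists_mem {i : ℕ} (hi : i ≤ 3) : ∃ x, x ∈ Z (i + 1) ∧ x ∉ Z i := by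
  obtain ⟨x, -, hx⟩ := exists_mem_succ h.isTwo (N := (⊤ : Subgroup T)) (n := i) (fun hle => by
    have h1 := h.card_Z (i := i) (by omega)
    rw [top_le_iff.1 hle, Subgroup.card_top] at h1
    have h2 : 2 ^ i ≤ 2 ^ 4 := Nat.pow_le_pow_right two_pos (by omega)
    have := h.big
    omega)
  exact ⟨x, hx⟩

theorem one_cases {y : T} {z : T} (hz : z ∈ Z 1) (hz1 : z ≠ 1) (hy : y ∈ Z 1) : y = 1 ∨ y = z := by
  have h0 : ∀ x : T, x ∈ Z 0 ↔ x = 1 := fun x => by rw [Subgroup.upperCentralSeries_zero, Subgroup.mem_bot]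
  rcases h.mem_or (i := 0) (by omega) hz (fun e => hz1 ((h0 _).1 e)) hy with e | e
  · exact Or.inl ((h0 _).1 e)
  · rcases h.mem_or (i := 0) (by omega) hz (fun e => hz1 ((h0 _).1 e)) hz with e' | e'
    · exact absurd ((h0 _).1 e') hz1
    · exact Or.inr (mul_left_cancel (((h0 _).1 e).trans ((h0 _).1 e').symm))

theorem central {z : T} (hz : z ∈ Z 1) (t : T) : t * z = z * t := by
  rw [Subgroup.upperCentralSeries_one] at hz
  exact Subgroup.mem_center_iff.1 hz t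

/-- A basis of `Z₃` along the central series. -/
theorem exists_basis : ∃ z a b : T, z ∈ Z 1 ∧ z ≠ 1 ∧ a ∈ Z 2 ∧ a ∉ Z 1 ∧ b ∈ Z 3 ∧ b ∉ Z 2 ∧ a * b = b * a := by
  obtain ⟨z, hz, hz0⟩ := h.exists_mem (i := 0) (by omega)
  have hz1 : z ≠ 1 := fun e => hz0 (e ▸ (Z 0).one_mem)
  obtain ⟨a, ha, ha'⟩ := h.exists_mem (i := 1) (by omega)
  obtain ⟨x, hx, hx'⟩ := h.exists_mem (i := 3) (by omega)
  obtain ⟨y, hy⟩ : ∃ y, x * y * x⁻¹ * y⁻¹ ∉ Z 2 := by
    by_contra hcon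
    push Not at hcon
    apply hx'
    rw [Subgroup.mem_upperCentralSeries_succ_iff]
    intro y
    rw [commutatorElement_def]
    exact hcon y
  refine ⟨z, a, _, hz, hz1, ha, ha', comm_mem hx y, hy, ?_⟩
  have hcj : ∀ t : T, ∃ c ∈ Z 1, t * a = c * a * t := fun t => by
    refine ⟨t * a * t⁻¹ * a⁻¹, ?_, by group⟩
    have := (Z 1).inv_mem (comm_mem ha t)
    rwa [show (a * t * a⁻¹ * t⁻¹)⁻¹ = t * a * t⁻¹ * a⁻¹ by group] at this
  obtain ⟨c, hc, e1⟩ := hcj x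
  obtain ⟨d, hd, e2⟩ := hcj y
  have fc := h.central hc
  have fd := h.central hd
  have e1' : x⁻¹ * a = c⁻¹ * a * x⁻¹ := by
    calc x⁻¹ * a = c⁻¹ * (c * x⁻¹) * a := by group
      _ = c⁻¹ * x⁻¹ * (c * a * x) * x⁻¹ := by rw [← fc]; group
      _ = c⁻¹ * x⁻¹ * (x * a) * x⁻¹ := by rw [e1]
      _ = c⁻¹ * a * x⁻¹ := by group
  have e2' : y⁻¹ * a = d⁻¹ * a * y⁻¹ := by
    calc y⁻¹ * a = d⁻¹ * (d * y⁻¹) * a := by group
      _ = d⁻¹ * y⁻¹ * (d * a * y) * y⁻¹ := by rw [← fd]; group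
      _ = d⁻¹ * y⁻¹ * (y * a) * y⁻¹ := by rw [e2]
      _ = d⁻¹ * a * y⁻¹ := by group
  have fc' := h.central ((Z 1).inv_mem hc)
  have fd' := h.central ((Z 1).inv_mem hd)
  calc a * (x * y * x⁻¹ * y⁻¹) = (d⁻¹ * c⁻¹ * d * c) * a * (x * y * x⁻¹ * y⁻¹) := by
        rw [show d⁻¹ * c⁻¹ * d * c = 1 by rw [mul_assoc d⁻¹, fd c⁻¹]; group, one_mul]
    _ = x * y * x⁻¹ * (y⁻¹ * a) := by
        rw [e2']
        calc d⁻¹ * c⁻¹ * d * c * a * (x * y * x⁻¹ * y⁻¹) = d⁻¹ * c⁻¹ * d * (c * a * x) * (y * x⁻¹ * y⁻¹) := by group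
          _ = d⁻¹ * c⁻¹ * (d * x) * (a * y) * x⁻¹ * y⁻¹ := by rw [← e1]; group
          _ = d⁻¹ * c⁻¹ * x * (d * a * y) * x⁻¹ * y⁻¹ := by rw [← fd x]; group
          _ = d⁻¹ * (c⁻¹ * (x * y)) * (a * x⁻¹) * y⁻¹ := by rw [← e2]; group
          _ = d⁻¹ * (x * y) * (c⁻¹ * a * x⁻¹) * y⁻¹ := by rw [← fc' (x * y)]; group
          _ = d⁻¹ * (x * y * x⁻¹) * (a * y⁻¹) := by rw [← e1']; group
          _ = x * y * x⁻¹ * (d⁻¹ * a * y⁻¹) := by rw [← fd' (x * y * x⁻¹)]; group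
    _ = x * y * x⁻¹ * y⁻¹ * a := by group

theorem basis_comm {z a b : T} (hz : z ∈ Z 1) (hz1 : z ≠ 1) (ha : a ∈ Z 2) (ha' : a ∉ Z 1) (hb : b ∈ Z 3)
    (hb' : b ∉ Z 2) {t : T} (hta : t * a = a * t) (htb : t * b = b * t) {x : T} (hx : x ∈ Z 3) :
    t * x = x * t := by
  have C1 : ∀ y ∈ Z 1, t * y = y * t := fun y hy => h.central hy t
  have C2 : ∀ y ∈ Z 2, t * y = y * t := by
    intro y hy
    rcases h.mem_or (i := 1) (by omega) ha ha' hy with e | e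
    · exact C1 y e
    · have h2 : Commute t (a * y) := C1 _ e
      simpa using ((show Commute t a from hta).inv_right.mul_right h2).eq
  rcases h.mem_or (i := 2) (by omega) hb hb' hx with e | e
  · exact C2 x e
  · have h2 : Commute t (b * x) := C2 _ e
    simpa using ((show Commute t b from htb).inv_right.mul_right h2).eq

theorem mem_W_iff {z a b : T} (hz : z ∈ Z 1) (hz1 : z ≠ 1) (ha : a ∈ Z 2) (ha' : a ∉ Z 1) (hb : b ∈ Z 3)
    (hb' : b ∉ Z 2) {t : T} : t ∈ W ↔ t * a = a * t ∧ t * b = b * t := by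
  rw [h.eqW, Subgroup.mem_centralizer_iff]
  constructor
  · intro ht
    exact ⟨(ht a (ucs_le_succ 2 ha)).symm, (ht b hb).symm⟩
  · rintro ⟨h1, h2⟩ x hx
    exact (h.basis_comm hz hz1 ha ha' hb hb' h1 h2 hx).symm

theorem Z3_le : Z 3 ≤ W := by
  obtain ⟨z, a, b, hz, hz1, ha, ha', hb, hb', hab⟩ := h.exists_basis
  intro x hx
  rw [h.mem_W_iff hz hz1 ha ha' hb hb']
  exact ⟨(h.basis_comm hz hz1 ha ha' hb hb' rfl hab hx).symm,
    (h.basis_comm hz hz1 ha ha' hb hb' hab.symm rfl hx).symm⟩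

theorem W_normal : W.Normal := by
  rw [h.eqW]
  refine ⟨fun x hx g => ?_⟩
  rw [Subgroup.mem_centralizer_iff] at hx ⊢
  intro y hy
  have := hx (g⁻¹ * y * g) ((inferInstance : (Z 3).Normal).conj_mem' y hy g)
  calc y * (g * x * g⁻¹) = g * (g⁻¹ * y * g * x) * g⁻¹ := by group
    _ = g * (x * (g⁻¹ * y * g)) * g⁻¹ := by rw [this]
    _ = g * x * g⁻¹ * y := by group

theorem conj_comm_mem {i : ℕ} {x : T} (hx : x ∈ Z (i + 1)) (t : T) : t * x * t⁻¹ * x⁻¹ ∈ Z i := by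
  have := (Z i).inv_mem (comm_mem hx t)
  rwa [show (x * t * x⁻¹ * t⁻¹)⁻¹ = t * x * t⁻¹ * x⁻¹ by group] at this

theorem index_le : W.index ≤ 8 := by
  classical
  obtain ⟨z, a, b, hz, hz1, ha, ha', hb, hb', hab⟩ := h.exists_basis
  let f : T ⧸ W → Z 1 × Z 2 := fun q => (⟨_, h.conj_comm_mem ha q.out⟩, ⟨_, h.conj_comm_mem hb q.out⟩)
  have hf : Function.Injective f := by
    intro p q hpq
    rw [← QuotientGroup.out_eq' p, ← QuotientGroup.out_eq' q, QuotientGroup.eq]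
    set u := p.out
    set v := q.out
    have key : ∀ c : T, u * c * u⁻¹ * c⁻¹ = v * c * v⁻¹ * c⁻¹ → u⁻¹ * v * c = c * (u⁻¹ * v) := by
      intro c e
      have e1 : u * c * u⁻¹ = v * c * v⁻¹ := mul_right_cancel e
      calc u⁻¹ * v * c = u⁻¹ * (v * c * v⁻¹) * v := by group
        _ = c * (u⁻¹ * v) := by rw [← e1]; group
    rw [h.mem_W_iff hz hz1 ha ha' hb hb']
    exact ⟨key a (congrArg (fun c : Z 1 × Z 2 => (c.1 : T)) hpq), key b (congrArg (fun c : Z 1 × Z 2 => (c.2 : T)) hpq)⟩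
  rw [Subgroup.index_eq_card]
  refine (Nat.card_le_card_of_injective f hf).trans (le_of_eq ?_)
  rw [Nat.card_prod, h.card_Z (by omega), h.card_Z (by omega)]
  norm_num

/-- The Frattini subgroup of `W`, as a subgroup of `T`. -/
theorem frat_map : ∃ i ≤ 3, (frattini W).map W.subtype = Z i := by
  haveI := h.W_normal
  refine normal_eq_ucs h.isTwo h.four h.big (k := 3) (by omega) ?_
  rw [Nat.card_congr ((frattini W).equivMapOfInjective W.subtype W.subtype_injective).toEquiv.symm]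
  exact h.frat

theorem sq_mem_frat {w : T} (hw : w ∈ W) : w * w ∈ (frattini W).map W.subtype := by
  haveI : Fact (Nat.Prime 2) := ⟨Nat.prime_two⟩
  exact ⟨⟨w, hw⟩ ^ 2, CfsgLib.PGroups.pow_mem_frattini (h.isTwo.to_subgroup W) _, by simp [pow_two]⟩

theorem card_W_le {k : ℕ} (hk : k ≤ 3) (hsq : ∀ w ∈ W, w * w ∈ Z k) {I : Type*} [Finite I] (s : I → T)
    (hs : ∀ t : T, ∃ i, (s i)⁻¹ * t ∈ W) (hne : ¬ W ≤ Z k) :
    ∃ χ : T → ZMod 2, ∃ e ∈ Z (k + 1), e ∈ W ∧ χ e = 1 ∧ (∀ u ∈ W, ∀ v ∈ W, χ (u * v) = χ u + χ v) ∧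
      (∀ m ∈ Z k, χ m = 0) ∧ (∀ w ∈ W, coord χ s w = 0 → w ∈ Z k) ∧
      Nat.card W ≤ 2 ^ k * 2 ^ Nat.card I ∧
      (Nat.card W = 2 ^ k * 2 ^ Nat.card I → ∀ f : I → ZMod 2, ∃ w ∈ W, coord χ s w = f) := by
  haveI := h.W_normal
  have hkW : Z k ≤ W := (Subgroup.upperCentralSeries_mono T hk).trans h.Z3_le
  have hsucc : Z (k + 1) ≤ W := succ_le_of_lt h.isTwo (h.Z_double hk) hkW hne
  obtain ⟨e, he, he'⟩ := h.exists_mem hk
  obtain ⟨χ, hadd, hM, hχe⟩ := exists_functional W (Z k) hkW hsq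
    (fun w _ m hm => (inferInstance : (Z k).Normal).conj_mem m hm w) (hsucc he) he'
  have hmin : ∀ N : Subgroup T, N.Normal → Z k ≤ N → N ≤ W → ¬ N ≤ Z k → e ∈ N := by
    intro N hN h1 _ h2
    exact succ_le_of_lt h.isTwo (h.Z_double hk) h1 h2 he
  obtain ⟨hle, hsurj⟩ := card_le_and_surjective W (Z k) hkW hadd hM hχe hmin s hs
  rw [h.card_Z (by omega)] at hle hsurj
  exact ⟨χ, e, he, hsucc he, hχe, hadd, hM,
    fun w hw h0 => mem_of_coord_eq_zero W (Z k) hkW hadd hM hχe hmin s hs hw h0, hle, hsurj⟩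

theorem sizes : (frattini W).map W.subtype = Z 3 ∧ W.index = 8 ∧ Nat.card W = 2 ^ 11 ∧ Nat.card T = 2 ^ 14 := by
  obtain ⟨i, hi, hF⟩ := h.frat_map
  have h1 : Nat.card W * W.index = Nat.card T := W.card_mul_index
  have hidx := h.index_le
  have hT := h.large
  norm_num at hT
  have hne : ¬ W ≤ Z i := by
    intro hle
    have := Subgroup.card_le_of_le (hle.trans (Subgroup.upperCentralSeries_mono T (show i ≤ 4 by omega)))
    rw [h.four] at this
    nlinarith [Nat.mul_le_mul this hidx]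
  obtain ⟨χ, e, -, -, -, -, -, -, hle, -⟩ := h.card_W_le hi (fun w hw => hF ▸ h.sq_mem_frat hw)
    (fun q : T ⧸ W => q.out) (fun t => ⟨QuotientGroup.mk t, QuotientGroup.eq.1 (QuotientGroup.out_eq' _)⟩) hne
  rw [← Subgroup.index_eq_card] at hle
  have h2 : 2 ^ W.index ≤ 2 ^ 8 := Nat.pow_le_pow_right two_pos hidx
  have h3 : Nat.card W ≤ 2 ^ i * 256 := hle.trans (Nat.mul_le_mul_left _ (by simpa using h2))
  have h4 : 2 ^ i ≤ 2 ^ 3 := Nat.pow_le_pow_right two_pos hi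
  norm_num at h4
  have h5 : 2 ^ i = 8 := by nlinarith [Nat.mul_le_mul h3 hidx]
  have hi3 : i = 3 := Nat.pow_right_injective le_rfl (show 2 ^ i = 2 ^ 3 by omega)
  subst hi3
  norm_num at h3 ⊢
  refine ⟨hF, ?_, ?_, ?_⟩ <;> nlinarith [Nat.mul_le_mul h3 hidx]

theorem sq_mem {w : T} (hw : w ∈ W) : w * w ∈ Z 3 := h.sizes.1 ▸ h.sq_mem_frat hw

theorem le_of_index {H : Subgroup T} (hH : H ≤ W) (hc : Nat.card W ≤ 16 * Nat.card H) : Z 3 ≤ H := by
  have hle : (H.subgroupOf W).index ≤ 16 := by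
    have h1 := (H.subgroupOf W).card_mul_index
    rw [Nat.card_congr (Subgroup.subgroupOfEquivOfLe hH).toEquiv] at h1
    exact Nat.le_of_mul_le_mul_left (by rw [h1, mul_comm]; exact hc) Nat.card_pos
  have := Subgroup.map_mono (f := W.subtype) (h.avoid _ hle)
  rw [h.sizes.1, Subgroup.map_subgroupOf_eq_of_le hH] at this
  exact this

theorem comm_map : (commutator W).map W.subtype = Z 3 := by
  haveI := h.W_normal
  haveI : Fact (Nat.Prime 2) := ⟨Nat.prime_two⟩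
  set C := (commutator W).map W.subtype with hC
  have hCF : C ≤ Z 3 := h.sizes.1 ▸ Subgroup.map_mono (CfsgLib.PGroups.commutator_le_frattini (h.isTwo.to_subgroup W))
  obtain ⟨i, hi, hCi⟩ := normal_eq_ucs h.isTwo h.four h.big (k := 3) (N := C) (by omega)
    ((Subgroup.card_le_of_le hCF).trans (h.card_Z (by omega)).le)
  rcases Nat.lt_or_eq_of_le hi with hlt | rfl
  swap
  · exact hCi
  exfalso
  have hC2 : C ≤ Z 2 := hCi.le.trans (Subgroup.upperCentralSeries_mono T (by omega))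
  have hcm : ∀ u ∈ W, ∀ v ∈ W, u * v * u⁻¹ * v⁻¹ ∈ Z 2 := by
    intro u hu v hv
    refine hC2 ⟨⁅(⟨u, hu⟩ : W), ⟨v, hv⟩⁆, Subgroup.commutator_mem_commutator (Subgroup.mem_top _) (Subgroup.mem_top _), ?_⟩
    simp [commutatorElement_def]
  have N2 : (Z 2).Normal := inferInstance
  have hsq2 : ∀ u ∈ W, ∀ v ∈ W, ∃ c ∈ Z 2, u * v * (u * v) = c * ((u * u) * (v * v)) := by
    intro u hu v hv
    refine ⟨u * (v * u * v⁻¹ * u⁻¹) * u⁻¹, N2.conj_mem _ (hcm v hv u hu) u, ?_⟩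
    group
  obtain ⟨z, a, b, hz, hz1, ha, ha', hb, hb', hab⟩ := h.exists_basis
  let Q : Subgroup T :=
    { carrier := {w | w ∈ W ∧ w * w ∈ Z 2}
      one_mem' := ⟨W.one_mem, by rw [one_mul]; exact (Z 2).one_mem⟩
      mul_mem' := by
        rintro u v ⟨hu, hu'⟩ ⟨hv, hv'⟩
        obtain ⟨c, hc, e⟩ := hsq2 u hu v hv
        exact ⟨W.mul_mem hu hv, e ▸ (Z 2).mul_mem hc ((Z 2).mul_mem hu' hv')⟩
      inv_mem' := by
        rintro u ⟨hu, hu'⟩
        exact ⟨W.inv_mem hu, by rw [← mul_inv_rev]; exact (Z 2).inv_mem hu'⟩ }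
  have hbQ : b ∈ Q := ⟨h.Z3_le hb, (h.mem_or (i := 2) (by omega) hb hb' hb).resolve_left hb'⟩
  have hQcard : Nat.card W ≤ 2 * Nat.card Q := by
    by_cases hall : ∀ w ∈ W, w * w ∈ Z 2
    · exact card_le_two_mul 1 fun x hx => Or.inl ⟨hx, hall x hx⟩
    push Not at hall
    obtain ⟨w, hw, hw'⟩ := hall
    refine card_le_two_mul w fun x hx => ?_
    rw [or_iff_not_imp_left]
    intro hxQ
    obtain ⟨c, hc, e⟩ := hsq2 w hw x hx
    refine ⟨W.mul_mem hw hx, e ▸ (Z 2).mul_mem hc ?_⟩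
    exact (h.mem_or (i := 2) (by omega) (h.sq_mem hw) hw' (h.sq_mem hx)).resolve_left (fun e' => hxQ ⟨hx, e'⟩)
  obtain ⟨H, hH2, hHQ, hbH, hor, -⟩ := exists_max_avoid Q (Z 2)
    (fun x hx => ⟨h.Z3_le (ucs_le_succ 2 hx), (Z 2).mul_mem hx hx⟩) (fun w hw => hw.2)
    (fun w _ m hm => N2.conj_mem m hm w) hbQ hb'
  have hQH : Nat.card Q ≤ 2 * Nat.card H := card_le_two_mul b fun x hx => hor x hx
  exact hbH (h.le_of_index (fun x hx => (hHQ hx).1) (by omega) hb)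

theorem comm_Z3 {w x : T} (hw : w ∈ W) (hx : x ∈ Z 3) : w * x = x * w := by
  rw [h.eqW, Subgroup.mem_centralizer_iff] at hw
  exact (hw x hx).symm

theorem Z3_sq {x : T} (hx : x ∈ Z 3) : x * x = 1 := by
  haveI : Fact (Nat.Prime 2) := ⟨Nat.prime_two⟩
  haveI := h.W_normal
  let E : Subgroup W :=
    { carrier := {u | (u : T) ∈ Z 3 ∧ (u : T) * u = 1}
      one_mem' := ⟨(Z 3).one_mem, by simp⟩
      mul_mem' := by
        rintro u v ⟨hu, hu'⟩ ⟨hv, hv'⟩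
        refine ⟨(Z 3).mul_mem hu hv, ?_⟩
        rw [Subgroup.coe_mul, (show Commute (v : T) u from h.comm_Z3 v.2 hu).mul_mul_mul_comm, hu', hv', one_mul]
      inv_mem' := by
        rintro u ⟨hu, hu'⟩
        refine ⟨(Z 3).inv_mem hu, ?_⟩
        rw [Subgroup.coe_inv, ← mul_inv_rev, hu', inv_one] }
  have hE : commutator W ≤ E := by
    rw [commutator_def, Subgroup.commutator_le]
    intro u _ v _
    have hc : (u : T) * v * (u : T)⁻¹ * (v : T)⁻¹ ∈ Z 3 := by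
      rw [← h.comm_map]
      exact ⟨⁅u, v⁆, Subgroup.commutator_mem_commutator (Subgroup.mem_top _) (Subgroup.mem_top _), by simp [commutatorElement_def]⟩
    show ((⁅u, v⁆ : W) : T) ∈ Z 3 ∧ ((⁅u, v⁆ : W) : T) * ((⁅u, v⁆ : W) : T) = 1
    simp only [commutatorElement_def, Subgroup.coe_mul, Subgroup.coe_inv]
    refine ⟨hc, ?_⟩
    set c := (u : T) * v * (u : T)⁻¹ * (v : T)⁻¹ with hcd
    have hu2 := h.comm_Z3 v.2 (h.sq_mem u.2)
    have hcu := h.comm_Z3 u.2 hc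
    calc c * c = (u : T) * c * (u : T)⁻¹ * c := by rw [hcu]; group
      _ = (u : T) * u * (v : T) * ((u : T) * u)⁻¹ * (v : T)⁻¹ := by rw [hcd]; group
      _ = 1 := by rw [← hu2]; group
  obtain ⟨u, hu, rfl⟩ := h.comm_map.ge hx
  exact (hE hu).2

end Hyp
end CfsgLib.CoreFree.Rudvalis
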