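import Cfsg.Agent.Lib.CoreFree.Rudvalis.Center

/-! # Invariant quadratic forms on the regular module, and the centre of `W` -/

set_option autoImplicit false

open scoped commutatorElement

namespace CfsgLib.CoreFree.Rudvalis

/-- All triples. -/
def allD : List D :=
  [(0, 0, 0), (0, 0, 1), (0, 1, 0), (0, 1, 1), (1, 0, 0), (1, 0, 1), (1, 1, 0), (1, 1, 1)]

theorem allD_nodup : allD.Nodup := by decide
theorem mem_allD : ∀ g : D, g ∈ allD := by decide
theorem ldiv_eq_iff : ∀ g k i : D, ldiv g i = k ↔ dmul g k = i := by decide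
theorem dmul_dinv : ∀ g : D, dmul g (dinv g) = (0, 0, 0) := by decide
theorem dmul_zero : ∀ g : D, dmul g (0, 0, 0) = g := by decide

/-- The value of the bilinear form against a combination of a list of basis vectors. -/
def bm (φ : D → ZMod 2) (f : D → ZMod 2) (g : D) : List D → ZMod 2
  | [] => 0
  | i :: l => f i * φ (ldiv g i) + bm φ f g l

/-- The value of the quadratic form on a combination of a list of basis vectors. -/
def qm (φ : D → ZMod 2) (γ : ZMod 2) (f : D → ZMod 2) : List D → ZMod 2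
  | [] => 0
  | i :: l => f i * γ + qm φ γ f l + f i * bm φ f i l

/-- Codimension three subspace on which the form vanishes. -/
def Good (f : D → ZMod 2) : Prop :=
  f (1, 0, 1) = f (1, 1, 1) ∧ f (1, 0, 0) = f (1, 1, 0) ∧ f (0, 0, 0) + f (0, 1, 0) = f (0, 0, 1) + f (0, 1, 1)

theorem qm_eq_zero (φ : D → ZMod 2) (γ : ZMod 2) (f : D → ZMod 2) (h0 : φ (0, 0, 0) = 0)
    (hc : φ (0, 1, 0) = 0) (ht : φ (0, 0, 1) = 0) (ht' : φ (0, 1, 1) = 0)
    (hr : φ (1, 1, 1) = φ (1, 0, 1)) (hs : φ (1, 1, 0) = φ (1, 0, 0)) (hf : Good f) :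
    qm φ γ f allD = 0 := by
  obtain ⟨f5, f4, f3⟩ := hf
  have e3 : ∀ a b c d : ZMod 2, a + b = c + d → d = a + c + b := by decide
  have f3' := e3 _ _ _ _ f3
  simp only [qm, bm, allD, ldiv, dmul, dinv, Fin.isValue, add_zero, zero_add, mul_zero, zero_mul, mul_one, one_mul,
    Prod.mk.injEq]
  simp (config := { decide := true }) only [Fin.isValue, h0, hc, ht, ht', hr, hs, show (1 : Fin 2) + 1 = 0 by decide,
    zero_add, add_zero, mul_zero, mul_one, ← f5, ← f4, f3']
  generalize φ (1, 0, 1) = r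
  generalize φ (1, 0, 0) = s
  generalize f (0, 0, 0) = a
  generalize f (0, 0, 1) = b
  generalize f (0, 1, 0) = c
  generalize f (1, 0, 0) = x
  generalize f (1, 0, 1) = y
  revert γ r s a b c x y
  decide

variable {T : Type*} [Group T] [Finite T]

local notation "Z" => Subgroup.upperCentralSeries T

theorem add_self_zmod : ∀ a : ZMod 2, a + a = 0 := by decide
theorem eq_of_add_eq_zero_zmod : ∀ a b : ZMod 2, a + b = 0 → a = b := by decide

namespace Hyp

variable {W : Subgroup T} (h : Hyp T W)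
include h

theorem comm_mem_Z3 {v w : T} (hv : v ∈ W) (hw : w ∈ W) : v * w * v⁻¹ * w⁻¹ ∈ Z 3 := by
  rw [← h.comm_map]
  exact ⟨⁅(⟨v, hv⟩ : W), ⟨w, hw⟩⁆, Subgroup.commutator_mem_commutator (Subgroup.mem_top _) (Subgroup.mem_top _),
    by simp [commutatorElement_def]⟩

open Classical in
/-- The top coordinate on `Z₃`. -/
noncomputable def _root_.CfsgLib.CoreFree.Rudvalis.top (T : Type*) [Group T] (x : T) : ZMod 2 :=
  if x ∈ Subgroup.upperCentralSeries T 2 then 0 else 1

theorem top_mul {x y : T} (hx : x ∈ Z 3) (hy : y ∈ Z 3) : top T (x * y) = top T x + top T y := by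
  classical
  by_cases h1 : x ∈ Z 2
  · by_cases h2 : y ∈ Z 2
    · simp [top, h1, h2, (Z 2).mul_mem h1 h2]
    · have : x * y ∉ Z 2 := fun e => h2 (by simpa using (Z 2).mul_mem ((Z 2).inv_mem h1) e)
      simp [top, h1, h2, this]
  · by_cases h2 : y ∈ Z 2
    · have : x * y ∉ Z 2 := fun e => h1 (by simpa using (Z 2).mul_mem e ((Z 2).inv_mem h2))
      simp [top, h1, h2, this]
    · have : x * y ∈ Z 2 := (h.mem_or (i := 2) (by omega) hx h1 hy).resolve_left h2
      simp [top, h1, h2, this]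
      rfl

theorem top_conj {x : T} (t : T) : top T (t * x * t⁻¹) = top T x := by
  classical
  have : t * x * t⁻¹ ∈ Z 2 ↔ x ∈ Z 2 :=
    ⟨fun e => by simpa [mul_assoc] using (inferInstance : (Z 2).Normal).conj_mem _ e t⁻¹,
      fun e => (inferInstance : (Z 2).Normal).conj_mem _ e t⟩
  simp [top, this]

theorem top_one : top T (1 : T) = 0 := by simp [top]

theorem center_map : (Subgroup.center W).map W.subtype = Z 3 := by
  classical
  haveI := h.W_normal
  obtain ⟨z, a, b, κ, σ, ⟨hz, hz1, ha, ha', hb, hb'⟩, hact, hmul, hκW, hκσ, hσ⟩ := h.exists_coordinates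
  set C := (Subgroup.center W).map W.subtype with hC
  have hCmem : ∀ x, x ∈ C ↔ x ∈ W ∧ ∀ w ∈ W, w * x = x * w := by
    intro x
    constructor
    · rintro ⟨u, hu, rfl⟩
      exact ⟨u.2, fun w hw => congrArg Subtype.val (Subgroup.mem_center_iff.1 hu ⟨w, hw⟩)⟩
    · rintro ⟨hx, hx'⟩
      exact ⟨⟨x, hx⟩, Subgroup.mem_center_iff.2 fun g => Subtype.ext (hx' g g.2), rfl⟩
  have h3C : Z 3 ≤ C := fun x hx => (hCmem x).2 ⟨h.Z3_le hx, fun w hw => h.comm_Z3 hw hx⟩
  refine le_antisymm ?_ h3C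
  by_contra hnot
  have h4C : Z 4 ≤ C := succ_le_of_lt h.isTwo (h.Z_double le_rfl) h3C hnot
  -- regular coordinates
  have hWne : ¬ W ≤ Z 3 := fun hle => by
    have := Subgroup.card_le_of_le hle
    rw [h.sizes.2.2.1, h.card_Z (by omega)] at this
    norm_num at this
  obtain ⟨χ, e, he, heW, hχe, hadd, hM, hker, -, hsurj⟩ :=
    h.card_W_le le_rfl (fun w hw => h.sq_mem hw) σ (fun t => ⟨κ t, hσ t⟩) hWne
  have hcardI : Nat.card D = 8 := by simp [D]
  replace hsurj := hsurj (by rw [h.sizes.2.2.1, hcardI]; norm_num)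
  have hW := h.W_normal
  have hcmul : ∀ {v w : T}, v ∈ W → w ∈ W → coord χ σ (v * w) = coord χ σ v + coord χ σ w :=
    fun hv hw => coord_mul W hadd σ hv hw
  have hc1 : coord χ σ (1 : T) = 0 := funext fun i => by
    show χ _ = 0
    exact hM _ (by simp)
  have hcongr : ∀ v ∈ W, ∀ w ∈ W, coord χ σ v = coord χ σ w → ∃ m ∈ Z 3, v = w * m := by
    intro v hv w hw e
    refine ⟨w⁻¹ * v, hker _ (W.mul_mem (W.inv_mem hw) hv) ?_, by group⟩
    rw [hcmul (W.inv_mem hw) hv, e, ← hcmul (W.inv_mem hw) hw, inv_mul_cancel, hc1]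
  have hconjW : ∀ u ∈ W, ∀ v ∈ W, χ (u⁻¹ * v * u) = χ v := by
    intro u hu v hv
    have h1 := hadd u hu _ (W.mul_mem (W.mul_mem (W.inv_mem hu) hv) hu)
    rw [show u * (u⁻¹ * v * u) = v * u by group, hadd v hv u hu] at h1
    have h2 : ∀ p q r : ZMod 2, p + q = q + r → r = p := by decide
    exact h2 _ _ _ h1
  have hκinv : ∀ t, κ t⁻¹ = dinv (κ t) := fun t => by
    rw [← ldiv_zero, ← (hκW 1).1 W.one_mem, ← mul_inv_cancel t, hmul, ldiv_dmul]
  have hcconj : ∀ (t : T), ∀ w ∈ W, ∀ i, coord χ σ (t * w * t⁻¹) i = coord χ σ w (ldiv (κ t) i) := by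
    intro t w hw i
    have hu := hσ (t⁻¹ * σ i)
    rw [hmul, hκinv, hκσ] at hu
    show χ ((σ i)⁻¹ * (t * w * t⁻¹) * σ i) = χ ((σ (ldiv (κ t) i))⁻¹ * w * σ (ldiv (κ t) i))
    rw [show (σ i)⁻¹ * (t * w * t⁻¹) * σ i = ((σ (ldiv (κ t) i))⁻¹ * (t⁻¹ * σ i))⁻¹ *
        ((σ (ldiv (κ t) i))⁻¹ * w * σ (ldiv (κ t) i)) * ((σ (ldiv (κ t) i))⁻¹ * (t⁻¹ * σ i)) by group]
    exact hconjW _ hu _ (hW.conj_mem' w hw _)
  choose u huW hu using fun g : D => hsurj (Pi.single g 1)
  let β : T → T → ZMod 2 := fun v w => top T (v * w * v⁻¹ * w⁻¹)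
  let qf : T → ZMod 2 := fun w => top T (w * w)
  have hβl : ∀ v1 ∈ W, ∀ v2 ∈ W, ∀ w ∈ W, β (v1 * v2) w = β v1 w + β v2 w := by
    intro v1 h1 v2 h2 w hw
    show top T _ = _
    rw [show v1 * v2 * w * (v1 * v2)⁻¹ * w⁻¹ = v1 * (v2 * w * v2⁻¹ * w⁻¹) * v1⁻¹ * (v1 * w * v1⁻¹ * w⁻¹) by group,
      h.top_mul ((inferInstance : (Z 3).Normal).conj_mem _ (h.comm_mem_Z3 h2 hw) v1) (h.comm_mem_Z3 h1 hw),
      h.top_conj, add_comm]
  have hβs : ∀ v ∈ W, ∀ w ∈ W, β w v = β v w := by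
    intro v hv w hw
    show top T _ = top T _
    rw [show w * v * w⁻¹ * v⁻¹ = (v * w * v⁻¹ * w⁻¹)⁻¹ by group,
      inv_eq_of_mul_eq_one_right (h.Z3_sq (h.comm_mem_Z3 hv hw))]
  have hβ1 : ∀ w, β 1 w = 0 := fun w => by
    show top T _ = 0
    rw [show (1 : T) * w * 1⁻¹ * w⁻¹ = 1 by group, h.top_one]
  have hβZ : ∀ m ∈ Z 3, ∀ w ∈ W, β m w = 0 := by
    intro m hm w hw
    show top T _ = 0
    rw [← h.comm_Z3 hw hm, mul_inv_cancel_right, mul_inv_cancel, h.top_one]
  have hβcongr : ∀ v ∈ W, ∀ v' ∈ W, ∀ w ∈ W, coord χ σ v = coord χ σ v' → β v w = β v' w := by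
    intro v hv v' hv' w hw e
    obtain ⟨m, hm, rfl⟩ := hcongr v hv v' hv' e
    rw [hβl v' hv' m (h.Z3_le hm) w hw, hβZ m hm w hw, add_zero]
  have hβconj : ∀ t v w, β (t * v * t⁻¹) (t * w * t⁻¹) = β v w := by
    intro t v w
    show top T _ = top T _
    rw [show t * v * t⁻¹ * (t * w * t⁻¹) * (t * v * t⁻¹)⁻¹ * (t * w * t⁻¹)⁻¹ = t * (v * w * v⁻¹ * w⁻¹) * t⁻¹ by group]
    exact h.top_conj t
  have hqmul : ∀ v ∈ W, ∀ w ∈ W, qf (v * w) = qf v + qf w + β v w := by
    intro v hv w hw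
    show top T _ = top T _ + top T _ + top T _
    rw [show v * w * (v * w) = (v * v) * ((v⁻¹ * (w * v * w⁻¹ * v⁻¹) * v⁻¹⁻¹) * (w * w)) by group,
      h.top_mul (h.sq_mem hv) ((Z 3).mul_mem ((inferInstance : (Z 3).Normal).conj_mem _ (h.comm_mem_Z3 hw hv) _) (h.sq_mem hw)),
      h.top_mul ((inferInstance : (Z 3).Normal).conj_mem _ (h.comm_mem_Z3 hw hv) _) (h.sq_mem hw), h.top_conj]
    have := hβs v hv w hw
    show _ + (β w v + _) = _
    rw [this]
    show _ + (β v w + _) = _ + _ + β v w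
    ring
  have hqconj : ∀ t w, qf (t * w * t⁻¹) = qf w := by
    intro t w
    show top T _ = top T _
    rw [show t * w * t⁻¹ * (t * w * t⁻¹) = t * (w * w) * t⁻¹ by group]
    exact h.top_conj t
  have hqcongr : ∀ v ∈ W, ∀ v' ∈ W, coord χ σ v = coord χ σ v' → qf v = qf v' := by
    intro v hv v' hv' e
    obtain ⟨m, hm, rfl⟩ := hcongr v hv v' hv' e
    rw [hqmul v' hv' m (h.Z3_le hm), hβs m (h.Z3_le hm) v' hv', hβZ m hm v' hv',
      show qf m = 0 from (congrArg (top T) (h.Z3_sq hm)).trans h.top_one, add_zero, add_zero]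
  let o : D := (0, 0, 0)
  let φ : D → ZMod 2 := fun g => β (u o) (u g)
  have hmove : ∀ t k, coord χ σ (t * u k * t⁻¹) = coord χ σ (u (dmul (κ t) k)) := by
    intro t k
    funext i
    rw [hcconj t _ (huW k) i, hu, hu]
    by_cases hk : ldiv (κ t) i = k
    · rw [hk, Pi.single_eq_same, (ldiv_eq_iff _ _ _).1 hk, Pi.single_eq_same]
    · rw [Pi.single_eq_of_ne hk, Pi.single_eq_of_ne]
      intro e
      exact hk ((ldiv_eq_iff _ _ _).2 e.symm)
  have hφ : ∀ g i, β (u g) (u i) = φ (ldiv g i) := by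
    intro g i
    have e1 := hmove (σ g) o
    have e2 := hmove (σ g) (ldiv g i)
    rw [hκσ] at e1 e2
    rw [dmul_zero] at e1
    rw [dmul_ldiv] at e2
    show _ = β (u o) (u (ldiv g i))
    rw [← hβconj (σ g) (u o), hβcongr _ (hW.conj_mem _ (huW o) _) _ (huW g) _ (hW.conj_mem _ (huW _) _) e1,
      hβs _ (hW.conj_mem _ (huW _) _) _ (huW g),
      hβcongr _ (hW.conj_mem _ (huW _) _) _ (huW i) _ (huW g) e2, hβs _ (huW i) _ (huW g)]
  have hqu : ∀ g, qf (u g) = qf (u o) := by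
    intro g
    have e1 := hmove (σ g) o
    rw [hκσ, dmul_zero] at e1
    rw [← hqconj (σ g) (u o), hqcongr _ (hW.conj_mem _ (huW o) _) _ (huW g) e1]
  have hφsym : ∀ g, φ (dinv g) = φ g := fun g => by
    rw [← ldiv_zero, ← hφ, hβs _ (huW o) _ (huW g)]
  have hφ0 : φ o = 0 := by
    show top T _ = 0
    rw [show u o * u o * (u o)⁻¹ * (u o)⁻¹ = 1 by group, h.top_one]
  -- involutions moving every element outside `Z₂`
  have hφinv : ∀ g : D, dinv g = g → (g.2.2 = 1 ∨ g = (0, 1, 0)) → φ g = 0 := by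
    intro g hg hmv
    set t := σ g with ht
    set X := u o * u g * (u o)⁻¹ * (u g)⁻¹ with hX
    have hX3 : X ∈ Z 3 := h.comm_mem_Z3 (huW o) (huW g)
    have e1 := hmove t o
    have e2 := hmove t g
    rw [hκσ, dmul_zero] at e1
    rw [hκσ] at e2
    have hgg : dmul g g = o := by
      have := dmul_dinv g
      rwa [hg] at this
    rw [hgg] at e2
    obtain ⟨m, hm, em⟩ := hcongr _ (hW.conj_mem _ (huW o) t) _ (huW g) e1
    obtain ⟨n, hn, en⟩ := hcongr _ (hW.conj_mem _ (huW g) t) _ (huW o) e2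
    have hfix : t * X * t⁻¹ = X := by
      calc t * X * t⁻¹ = (t * u o * t⁻¹) * (t * u g * t⁻¹) * (t * u o * t⁻¹)⁻¹ * (t * u g * t⁻¹)⁻¹ := by rw [hX]; group
        _ = u g * (m * (u o * n) * m⁻¹) * (u g)⁻¹ * (n⁻¹ * (u o)⁻¹) := by rw [em, en]; group
        _ = u g * (u o * n) * (u g)⁻¹ * (n⁻¹ * (u o)⁻¹) := by
          rw [← h.comm_Z3 (W.mul_mem (huW o) (h.Z3_le hn)) hm, mul_inv_cancel_right]
        _ = u g * u o * (n * (u g)⁻¹) * n⁻¹ * (u o)⁻¹ := by group
        _ = X⁻¹ := by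
          rw [← h.comm_Z3 (W.inv_mem (huW g)) hn, hX]; group
        _ = X := inv_eq_of_mul_eq_one_right (h.Z3_sq hX3)
    show top T X = 0
    have hX2 : X ∈ Z 2 := by
      by_contra hX2
      have hbX : b * X ∈ Z 2 := (h.mem_or (i := 2) (by omega) hb hb' hX3).resolve_left hX2
      obtain ⟨f1, f2⟩ := hact t
      rw [hκσ] at f1 f2
      have hz2 : ∀ n : ℕ, z ^ n ∈ Z 1 := fun n => (Z 1).pow_mem hz n
      have e3 : t * (b * X) * t⁻¹ * (b * X)⁻¹ = a ^ (g.2.2 : ℕ) * z ^ (g.2.1 : ℕ) := by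
        calc t * (b * X) * t⁻¹ * (b * X)⁻¹ = (t * b * t⁻¹) * (t * X * t⁻¹) * X⁻¹ * b⁻¹ := by group
          _ = b * (a ^ (g.2.2 : ℕ) * z ^ (g.2.1 : ℕ)) * b⁻¹ := by rw [hfix, f2]; group
          _ = _ := by
            rw [h.comm_Z3 (h.Z3_le hb) ((Z 3).mul_mem ((Z 3).pow_mem (ucs_le_succ 2 ha) _)
              (Subgroup.upperCentralSeries_mono T (by norm_num) (hz2 _))), mul_inv_cancel_right]
      rcases hmv with hp | hg'
      · have := h.conj_comm_mem hbX t
        rw [e3, hp] at this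
        refine ha' ?_
        simpa using (Z 1).mul_mem this ((Z 1).inv_mem (hz2 (g.2.1 : ℕ)))
      · subst hg'
        simp only [Fin.val_zero, pow_zero, mul_one, one_mul, Fin.val_one, pow_one] at e3 f1
        have hfix2 : t * (b * X) = (b * X) * t := by
          rcases h.mem_or (i := 1) (by omega) ha ha' hbX with e' | e'
          · exact h.central e' t
          · have h1 : Commute t a := mul_inv_eq_iff_eq_mul.1 f1
            have h2 : Commute t (a * (b * X)) := h.central e' t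
            simpa using (h1.inv_right.mul_right h2).eq
        rw [hfix2, mul_inv_cancel_right, mul_inv_cancel] at e3
        exact hz1 e3.symm
    simp [top, hX2]
  -- products of the basis
  let P : List D → (D → ZMod 2) → T := fun l f => l.foldr (fun g acc => (if f g = 1 then u g else 1) * acc) 1
  have hPW : ∀ l f, P l f ∈ W := by
    intro l f
    induction l with
    | nil => exact W.one_mem
    | cons g l ih =>
      show (if f g = 1 then u g else 1) * P l f ∈ W
      split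
      · exact W.mul_mem (huW g) ih
      · exact W.mul_mem W.one_mem ih
  have hz01 : ∀ x : ZMod 2, x = 0 ∨ x = 1 := by decide
  have hPc : ∀ l : List D, l.Nodup → ∀ f, coord χ σ (P l f) = fun i => if i ∈ l then f i else 0 := by
    intro l
    induction l with
    | nil =>
      intro _ f
      show coord χ σ (1 : T) = _
      rw [hc1]
      funext i
      simp
    | cons g l ih =>
      intro hnd f
      rw [List.nodup_cons] at hnd
      have hfac : (if f g = 1 then u g else 1) ∈ W := by split <;> simp [huW, W.one_mem]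
      show coord χ σ ((if f g = 1 then u g else 1) * P l f) = _
      rw [hcmul hfac (hPW l f), ih hnd.2 f]
      funext i
      rcases hz01 (f g) with e' | e'
      · by_cases hi : i = g
        · subst hi; simp [e', hc1, hnd.1]
        · simp [e', hc1, hi]
      · by_cases hi : i = g
        · subst hi; simp [e', hu, hnd.1]
        · simp [e', hu, hi]
  have hβP : ∀ l f g, β (u g) (P l f) = bm φ f g l := by
    intro l f g
    induction l with
    | nil => exact (hβs 1 W.one_mem _ (huW g)).trans (hβ1 _)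
    | cons i l ih =>
      show β (u g) ((if f i = 1 then u i else 1) * P l f) = f i * φ (ldiv g i) + bm φ f g l
      have hfac : (if f i = 1 then u i else 1) ∈ W := by split <;> simp [huW, W.one_mem]
      rw [hβs _ (W.mul_mem hfac (hPW l f)) _ (huW g), hβl _ hfac _ (hPW l f) _ (huW g), hβs (u g) (huW g) _ (hPW l f), ih]
      rcases hz01 (f i) with e' | e' <;> simp [e', hβ1, hβs (u g) (huW g) (u i) (huW i), hφ]
  have hqP : ∀ l f, qf (P l f) = qm φ (qf (u o)) f l := by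
    intro l f
    induction l with
    | nil =>
      show top T ((1 : T) * 1) = 0
      rw [one_mul, h.top_one]
    | cons i l ih =>
      show qf ((if f i = 1 then u i else 1) * P l f) = f i * qf (u o) + qm φ (qf (u o)) f l + f i * bm φ f i l
      rcases hz01 (f i) with e' | e'
      · simp [e', ih]
      · rw [if_pos e', hqmul _ (huW i) _ (hPW l f), ih, hqu, hβP, e', one_mul, one_mul]
  -- the central element of `Z₄` forces the orbit relation
  have heZ : ∀ w ∈ W, w * e = e * w := ((hCmem e).1 (h4C he)).2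
  have hcoe : coord χ σ e = fun _ => 1 := by
    funext i
    show χ ((σ i)⁻¹ * e * σ i) = 1
    have hm : e⁻¹ * (σ i)⁻¹ * e⁻¹⁻¹ * (σ i)⁻¹⁻¹ ∈ Z 3 := comm_mem ((Z 4).inv_mem he) _
    rw [show (σ i)⁻¹ * e * σ i = e * (e⁻¹ * (σ i)⁻¹ * e⁻¹⁻¹ * (σ i)⁻¹⁻¹) by group,
      hadd e heW _ (h.Z3_le hm), hM _ hm, hχe, add_zero]
  have hsum : φ (1, 1, 0) = φ (1, 0, 0) := by
    have e1 : β e (u o) = 0 := by
      show top T _ = 0
      rw [← heZ _ (huW o), mul_inv_cancel_right, mul_inv_cancel, h.top_one]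
    have e2 : coord χ σ e = coord χ σ (P allD fun _ => 1) := by
      rw [hcoe, hPc allD allD_nodup]
      funext i
      simp [mem_allD]
    rw [hβcongr e heW _ (hPW _ _) _ (huW o) e2, hβs _ (huW o) _ (hPW _ _), hβP] at e1
    have h5 : φ (1, 1, 1) = φ (1, 0, 1) := hφsym (1, 0, 1)
    simp [bm, allD, ldiv, dmul, dinv, o] at e1
    rw [show φ (0, 0, 0) = 0 from hφ0, hφinv (0, 0, 1) (by decide) (Or.inl rfl), hφinv (0, 1, 1) (by decide) (Or.inl rfl),
      hφinv (0, 1, 0) (by decide) (Or.inr rfl), h5] at e1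
    have key : ∀ p q r : ZMod 2, 0 + (0 + (0 + (0 + (p + (q + (r + q)))))) = 0 → r = p := by decide
    exact key _ _ _ e1
  have hgood : ∀ w ∈ W, Good (coord χ σ w) → w * w ∈ Z 2 := by
    intro w hw hg
    have e1 : coord χ σ w = coord χ σ (P allD (coord χ σ w)) := by
      rw [hPc allD allD_nodup]
      funext i
      simp [mem_allD]
    have e2 : qf w = 0 := by
      rw [hqcongr w hw _ (hPW _ _) e1, hqP]
      exact qm_eq_zero φ _ _ hφ0 (hφinv _ (by decide) (Or.inr rfl)) (hφinv _ (by decide) (Or.inl rfl))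
        (hφinv _ (by decide) (Or.inl rfl)) (hφsym (1, 0, 1)) hsum hg
    by_contra hne
    simp [qf, top, hne] at e2
  let L : T → ZMod 2 × ZMod 2 × ZMod 2 := fun w =>
    (coord χ σ w (1, 0, 1) + coord χ σ w (1, 1, 1), coord χ σ w (1, 0, 0) + coord χ σ w (1, 1, 0),
      coord χ σ w (0, 0, 0) + coord χ σ w (0, 1, 0) + (coord χ σ w (0, 0, 1) + coord χ σ w (0, 1, 1)))
  let Lh : W →* Multiplicative (ZMod 2 × ZMod 2 × ZMod 2) := MonoidHom.mk' (fun w => Multiplicative.ofAdd (L w)) <| by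
    intro v w
    rw [← ofAdd_add]
    refine congrArg Multiplicative.ofAdd ?_
    show L ((v : T) * w) = _
    simp only [L, hcmul v.2 w.2, Pi.add_apply, Prod.mk_add_mk, Prod.mk.injEq]
    refine ⟨?_, ?_, ?_⟩ <;> ring
  set Q := Lh.ker.map W.subtype with hQ
  have hQW : Q ≤ W := Subgroup.map_subtype_le _
  have hQgood : ∀ w ∈ Q, w * w ∈ Z 2 := by
    rintro _ ⟨v, hv, rfl⟩
    refine hgood _ v.2 ?_
    have e1 : L (v : T) = 0 := congrArg Multiplicative.toAdd (MonoidHom.mem_ker.1 hv)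
    simp only [L, Prod.mk_eq_zero] at e1
    exact ⟨eq_of_add_eq_zero_zmod _ _ e1.1, eq_of_add_eq_zero_zmod _ _ e1.2.1, eq_of_add_eq_zero_zmod _ _ e1.2.2⟩
  have hQcard : Nat.card W ≤ 8 * Nat.card Q := by
    rw [Nat.card_congr (Lh.ker.equivMapOfInjective W.subtype W.subtype_injective).toEquiv.symm, ← Lh.ker.card_mul_index,
      Subgroup.index_ker, mul_comm]
    refine Nat.mul_le_mul_right _ ((Subgroup.card_le_card_group _).trans (le_of_eq ?_))
    rw [Nat.card_congr Multiplicative.toAdd, Nat.card_prod, Nat.card_prod, Nat.card_zmod]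
  have hbQ : b ∈ Q := by
    refine ⟨⟨b, h.Z3_le hb⟩, ?_, rfl⟩
    refine congrArg Multiplicative.ofAdd ?_
    have : coord χ σ b = 0 := funext fun i => hM _ ((inferInstance : (Z 3).Normal).conj_mem' b hb _)
    simp [L, this]
  have hZ2Q : Z 2 ≤ Q := by
    intro x hx
    refine ⟨⟨x, h.Z3_le (ucs_le_succ 2 hx)⟩, ?_, rfl⟩
    refine congrArg Multiplicative.ofAdd ?_
    have : coord χ σ x = 0 := funext fun i => hM _ ((inferInstance : (Z 3).Normal).conj_mem' x (ucs_le_succ 2 hx) _)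
    simp [L, this]
  obtain ⟨H, -, hHQ, hbH, hor, -⟩ := exists_max_avoid Q (Z 2) hZ2Q hQgood
    (fun w _ m hm => (inferInstance : (Z 2).Normal).conj_mem m hm w) hbQ hb'
  have hQH : Nat.card Q ≤ 2 * Nat.card H := card_le_two_mul b fun x hx => hor x hx
  exact hbH (h.le_of_index (hHQ.trans hQW) (by omega) hb)

end Hyp
end CfsgLib.CoreFree.Rudvalis
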