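import Cfsg.Agent.Lib.TwoGroups.NormalAbelian
import Cfsg.Agent.Lib.PGroups.Frattini

/-! # A two-group whose fourth centre has order sixteen: the bottom of the central series -/

set_option autoImplicit false

namespace CfsgLib.CoreFree.Rudvalis

variable {T : Type*} [Group T] [Finite T]

local notation "Z" => Subgroup.upperCentralSeries T

theorem ucs_le_succ (n : ℕ) : Z n ≤ Z (n + 1) := Subgroup.upperCentralSeries_mono T (Nat.le_succ n)

theorem comm_mem {n : ℕ} {x : T} (hx : x ∈ Z (n + 1)) (y : T) : x * y * x⁻¹ * y⁻¹ ∈ Z n := by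
  have := Subgroup.mem_upperCentralSeries_succ_iff.1 hx y
  rwa [commutatorElement_def] at this

/-- A normal subgroup not inside `Z n` meets `Z (n+1)` outside `Z n`. -/
theorem exists_mem_succ (hT : IsPGroup 2 T) {N : Subgroup T} [N.Normal] {n : ℕ} (h : ¬ N ≤ Z n) :
    ∃ x ∈ N, x ∈ Z (n + 1) ∧ x ∉ Z n := by
  haveI : Fact (Nat.Prime 2) := ⟨Nat.prime_two⟩
  have hne : N.map (QuotientGroup.mk' (Z n)) ≠ ⊥ := by
    rw [Ne, Subgroup.map_eq_bot_iff, QuotientGroup.ker_mk']; exact h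
  have := Subgroup.Normal.map ‹N.Normal› (QuotientGroup.mk' (Z n)) (QuotientGroup.mk'_surjective _)
  obtain ⟨_, ⟨x, hx, rfl⟩, hx1, hxc⟩ :=
    CfsgLib.TwoGroups.exists_mem_center_of_normal (hT.to_quotient (Z n)) hne
  refine ⟨x, hx, ?_, fun h' => hx1 ((QuotientGroup.eq_one_iff x).2 h')⟩
  rw [Subgroup.mem_upperCentralSeries_succ_iff]
  intro y
  rw [commutatorElement_def, ← QuotientGroup.eq_one_iff]
  have hc := Subgroup.mem_center_iff.1 hxc (QuotientGroup.mk' (Z n) y)
  simp only [QuotientGroup.mk'_apply] at hc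
  rw [QuotientGroup.mk_mul, QuotientGroup.mk_mul, QuotientGroup.mk_mul, ← hc,
    QuotientGroup.mk_inv, QuotientGroup.mk_inv]
  group

theorem lt_succ (hT : IsPGroup 2 T) {n : ℕ} (h : Z n ≠ ⊤) : Z n < Z (n + 1) := by
  obtain ⟨x, -, hx, hx'⟩ := exists_mem_succ hT (N := (⊤ : Subgroup T)) (n := n) (fun hh => h (top_le_iff.1 hh))
  exact SetLike.lt_iff_le_and_exists.2 ⟨ucs_le_succ n, x, hx, hx'⟩

theorem two_mul_card_le {H K : Subgroup T} (h : H < K) : 2 * Nat.card H ≤ Nat.card K := by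
  obtain ⟨k, hk⟩ := Subgroup.card_dvd_of_le h.le
  have h1 : Nat.card H < Nat.card K :=
    lt_of_le_of_ne (Subgroup.card_le_of_le h.le) fun e => h.ne (Subgroup.eq_of_le_of_card_ge h.le e.ge)
  rw [hk] at h1 ⊢
  have : 2 ≤ k := by
    by_contra hk2
    interval_cases k <;> omega
  rw [mul_comm 2]
  exact Nat.mul_le_mul_left _ this

theorem card_ucs (hT : IsPGroup 2 T) (h4 : Nat.card (Z 4) = 16) (hbig : 16 < Nat.card T) {i : ℕ} (hi : i ≤ 4) :
    Nat.card (Z i) = 2 ^ i := by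
  have step : ∀ j < 4, 2 * Nat.card (Z j) ≤ Nat.card (Z (j + 1)) := fun j hj => two_mul_card_le <| lt_succ hT <| by
    intro e
    have : Nat.card (Z j) ≤ 16 := h4 ▸ Subgroup.card_le_of_le (Subgroup.upperCentralSeries_mono T hj.le)
    rw [e, Subgroup.card_top] at this
    omega
  have h0 : Nat.card (Z 0) = 1 := by rw [Subgroup.upperCentralSeries_zero]; exact Subgroup.card_bot
  have s0 := step 0 (by omega); have s1 := step 1 (by omega); have s2 := step 2 (by omega); have s3 := step 3 (by omega)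
  simp only [Nat.reduceAdd] at s0 s1 s2 s3
  interval_cases i <;> simp only [Nat.reducePow] <;> omega

theorem mem_or_mem {n : ℕ} (hc : Nat.card (Z (n + 1)) = 2 * Nat.card (Z n)) {x y : T}
    (hx : x ∈ Z (n + 1)) (hx' : x ∉ Z n) (hy : y ∈ Z (n + 1)) : y ∈ Z n ∨ x * y ∈ Z n := by
  have hi : ((Z n).subgroupOf (Z (n + 1))).index = 2 := by
    have := ((Z n).subgroupOf (Z (n + 1))).card_mul_index
    rw [Nat.card_congr (Subgroup.subgroupOfEquivOfLe (ucs_le_succ n)).toEquiv, hc, mul_comm 2] at this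
    exact Nat.eq_of_mul_eq_mul_left Nat.card_pos this
  rw [or_iff_not_imp_left]
  intro hy'
  exact (Subgroup.mul_mem_iff_of_index_two hi (a := (⟨x, hx⟩ : Z (n + 1))) (b := ⟨y, hy⟩)).2
    ⟨fun h => absurd h hx', fun h => absurd h hy'⟩

/-- A normal subgroup containing `Z n` properly contains `Z (n+1)`. -/
theorem succ_le_of_lt (hT : IsPGroup 2 T) {N : Subgroup T} [N.Normal] {n : ℕ}
    (hc : Nat.card (Z (n + 1)) = 2 * Nat.card (Z n)) (h : Z n ≤ N) (h' : ¬ N ≤ Z n) : Z (n + 1) ≤ N := by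
  obtain ⟨x, hxN, hx, hx'⟩ := exists_mem_succ hT h'
  intro y hy
  rcases mem_or_mem hc hx hx' hy with e | e
  · exact h e
  · simpa using N.mul_mem (N.inv_mem hxN) (h e)

/-- A normal subgroup of order at most `2 ^ k`, `k ≤ 4`, is one of the `Z i`. -/
theorem normal_eq_ucs (hT : IsPGroup 2 T) (h4 : Nat.card (Z 4) = 16) (hbig : 16 < Nat.card T) {N : Subgroup T}
    [N.Normal] {k : ℕ} (hk : k ≤ 4) (hN : Nat.card N ≤ 2 ^ k) : ∃ i ≤ k, N = Z i := by
  classical
  have key : ∀ i ≤ k, Z i ≤ N ∨ ∃ j ≤ i, N = Z j := by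
    intro i hi
    induction i with
    | zero => left; rw [Subgroup.upperCentralSeries_zero]; exact bot_le
    | succ i ih =>
      rcases ih (by omega) with h | ⟨j, hj, e⟩
      · by_cases h' : N ≤ Z i
        · exact Or.inr ⟨i, by omega, le_antisymm h' h⟩
        · refine Or.inl (succ_le_of_lt hT ?_ h h')
          rw [card_ucs hT h4 hbig (by omega), card_ucs hT h4 hbig (by omega), pow_succ, mul_comm]
      · exact Or.inr ⟨j, by omega, e⟩
  rcases key k le_rfl with h | ⟨j, hj, e⟩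
  · exact ⟨k, le_rfl, (Subgroup.eq_of_le_of_card_ge h (by rwa [card_ucs hT h4 hbig hk])).symm⟩
  · exact ⟨j, hj, e⟩

end CfsgLib.CoreFree.Rudvalis
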