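import Cfsg.Agent.Lib.CoreFree.Rudvalis.Form

/-! # Odd automorphisms of `T` are trivial, and `W` is the only subgroup of its isomorphism type -/

set_option autoImplicit false
set_option synthInstance.maxSize 2000

open scoped commutatorElement

namespace CfsgLib.CoreFree.Rudvalis

variable {T : Type*} [Group T] [Finite T]

local notation "Z" => Subgroup.upperCentralSeries T

/-- A set of four triples meeting every orbit of a nontrivial triple. -/
def reps (g : D) : List D :=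
  let h := if dmul g g = (0, 0, 0) then g else dmul g g
  allD.filter fun i => decide (allD.idxOf i ≤ allD.idxOf (dmul h i))

theorem reps_spec : ∀ g : D, g ≠ (0, 0, 0) →
    (reps g).length = 4 ∧ ∀ i : D, i ∈ reps g ∨ dmul g i ∈ reps g ∨ dmul g (dmul g i) ∈ reps g := by
  decide

theorem moves_top : ∀ g g' : D, g ≠ (0, 0, 0) → g' ≠ (0, 0, 0) → g ≠ g' → g.2.2 = 0 → g'.2.2 = 0 →
    g ≠ (0, 1, 0) → g' ≠ (0, 1, 0) → dmul g g' = (0, 1, 0) := by decide

theorem pow_eq_one_of_odd (hT : IsPGroup 2 T) {x : T} {m : ℕ} (hm : Odd m) (hx : x ^ m = 1) : x = 1 := by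
  obtain ⟨k, hk⟩ := hT x
  have h1 := Nat.dvd_gcd (orderOf_dvd_of_pow_eq_one hk) (orderOf_dvd_of_pow_eq_one hx)
  rw [(hm.coprime_two_left.pow_left k : Nat.Coprime (2 ^ k) m)] at h1
  exact orderOf_eq_one_iff.1 (Nat.dvd_one.1 h1)

theorem fixed_of_step (hT : IsPGroup 2 T) (α : T ≃* T) {m : ℕ} (hm : Odd m) (hα : ∀ x, (α : T → T)^[m] x = x)
    {x : T} (hc : α (x⁻¹ * α x) = x⁻¹ * α x) : α x = x := by
  have key : ∀ n : ℕ, (α : T → T)^[n] x = x * (x⁻¹ * α x) ^ n := by
    intro n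
    induction n with
    | zero => simp
    | succ n ih =>
      rw [Function.iterate_succ_apply', ih, map_mul, map_pow, hc]
      calc α x * (x⁻¹ * α x) ^ n = x * ((x⁻¹ * α x) * (x⁻¹ * α x) ^ n) := by
            rw [← mul_assoc x, mul_inv_cancel_left]
        _ = _ := by rw [← pow_succ']
  have h1 := key m
  rw [hα] at h1
  have h2 : x⁻¹ * α x = 1 := pow_eq_one_of_odd hT hm (mul_left_cancel (h1.symm.trans (mul_one x).symm))
  exact (inv_mul_eq_one.1 h2).symm

namespace Hyp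

variable {W : Subgroup T} (h : Hyp T W)
include h

theorem aut_trivial (α : T ≃* T) {m : ℕ} (hm : Odd m) (hα : ∀ x, (α : T → T)^[m] x = x) (x : T) : α x = x := by
  haveI := h.W_normal
  have hchar : ∀ (n : ℕ), ∀ y ∈ Z n, α y ∈ Z n := by
    intro n y hy
    exact (Subgroup.comap_upperCentralSeries α n).ge hy
  have hfix : ∀ y, α (y⁻¹ * α y) = y⁻¹ * α y → α y = y := fun y => fixed_of_step h.isTwo α hm hα
  -- trivial on `Z₃`
  obtain ⟨z, a, b, hz, hz1, ha, ha', hb, hb', -⟩ := h.exists_basis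
  have f1 : ∀ y ∈ Z 1, α y = y := by
    intro y hy
    rcases h.one_cases hz hz1 hy with rfl | rfl
    · exact map_one α
    · rcases h.one_cases hz hz1 (hchar 1 y hy) with e | e
      · exact absurd ((map_eq_one_iff α α.injective).1 e) hz1
      · exact e
  have step : ∀ i, i ≤ 2 → (∀ y ∈ Z i, α y = y) → ∀ y ∈ Z (i + 1), α y = y := by
    intro i hi hprev y hy
    by_cases hy' : y ∈ Z i
    · exact hprev y hy'
    · refine hfix y (hprev _ ?_)
      have e1 : α y ∈ Z (i + 1) := hchar _ y hy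
      have e2 : α y ∉ Z i := fun e => hy' (α.injective (hprev _ e) ▸ e)
      rcases h.mem_or (by omega) ((Z (i + 1)).inv_mem hy) (fun e => hy' (by simpa using (Z i).inv_mem e)) e1 with e | e
      · exact absurd e e2
      · exact e
  have f3 : ∀ y ∈ Z 3, α y = y := step 2 le_rfl (step 1 (by norm_num) f1)
  have hTW : ∀ t : T, t⁻¹ * α t ∈ W := by
    intro t
    rw [h.eqW, Subgroup.mem_centralizer_iff]
    intro y hy
    have e1 := f3 _ ((inferInstance : (Z 3).Normal).conj_mem y hy t)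
    rw [map_mul, map_mul, map_inv, f3 y hy] at e1
    calc y * (t⁻¹ * α t) = t⁻¹ * (t * y * t⁻¹) * α t := by group
      _ = t⁻¹ * α t * y := by rw [← e1]; group
  have hWchar : ∀ w ∈ W, α w ∈ W := by
    intro w hw
    have := W.mul_mem hw (hTW w)
    rwa [mul_inv_cancel_left] at this
  have f4 : ∀ y ∈ Z 4, α y = y := by
    intro y hy
    by_cases hy' : y ∈ Z 3
    · exact f3 y hy'
    · refine hfix y (f3 _ ?_)
      rcases h.mem_or le_rfl ((Z 4).inv_mem hy) (fun e => hy' (by simpa using (Z 3).inv_mem e)) (hchar 4 y hy) with e | e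
      · exact absurd (α.injective (f3 _ e) ▸ e) hy'
      · exact e
  -- trivial on `W`
  have hW : ∀ n, ∀ y ∈ W, y ∈ Z n → α y = y := by
    intro n
    induction n with
    | zero => intro y _ hy; exact f3 y (Subgroup.upperCentralSeries_mono T (Nat.zero_le 3) hy)
    | succ n ih =>
      intro y hyW hy
      set c := y⁻¹ * α y with hc
      have hcW : c ∈ W := W.mul_mem (W.inv_mem hyW) (hWchar y hyW)
      refine hfix y (f4 c ?_)
      rw [Subgroup.mem_upperCentralSeries_succ_iff]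
      intro t
      rw [commutatorElement_def]
      have hm1 : y * t * y⁻¹ * t⁻¹ ∈ W := by
        rw [show y * t * y⁻¹ * t⁻¹ = y * (t * y⁻¹ * t⁻¹) by group]
        exact W.mul_mem hyW (h.W_normal.conj_mem _ (W.inv_mem hyW) t)
      have e1 := ih _ hm1 (comm_mem hy t)
      rw [map_mul, map_mul, map_mul, map_inv, map_inv] at e1
      set w := t⁻¹ * α t with hw
      have hwW : w ∈ W := hTW t
      rw [show α y = y * c by rw [hc]; group, show α t = t * w by rw [hw]; group] at e1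
      -- modulo `Z₃`, where `W` is abelian
      rw [← QuotientGroup.eq_one_iff]
      have hab : ∀ u ∈ W, ∀ v ∈ W, (QuotientGroup.mk' (Z 3) u) * QuotientGroup.mk' (Z 3) v =
          QuotientGroup.mk' (Z 3) v * QuotientGroup.mk' (Z 3) u := by
        intro u hu v hv
        rw [← commutatorElement_eq_one_iff_mul_comm, commutatorElement_def, ← map_inv, ← map_inv,
          ← map_mul, ← map_mul, ← map_mul]
        exact (QuotientGroup.eq_one_iff _).2 (h.comm_mem_Z3 hu hv)
      set π := QuotientGroup.mk' (Z 3) with hπ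
      have e2 := congrArg π e1
      simp only [map_mul, map_inv] at e2
      show π (c * t * c⁻¹ * t⁻¹) = 1
      simp only [map_mul, map_inv]
      have a1 : π w * (π c)⁻¹ * (π y)⁻¹ * (π w)⁻¹ = (π c)⁻¹ * (π y)⁻¹ := by
        rw [mul_inv_eq_iff_eq_mul, ← map_inv, ← map_inv, mul_assoc, ← map_mul π c⁻¹ y⁻¹]
        exact hab w hwW _ (W.mul_mem (W.inv_mem hcW) (W.inv_mem hyW))
      have e3 : π y * π c * π t * ((π c)⁻¹ * (π y)⁻¹) * (π t)⁻¹ = π y * π t * (π y)⁻¹ * (π t)⁻¹ := by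
        rw [← a1, ← e2]; group
      have a2 : π t * ((π c)⁻¹ * (π y)⁻¹) * (π t)⁻¹ = π t * (π c)⁻¹ * (π t)⁻¹ * (π t * (π y)⁻¹ * (π t)⁻¹) := by group
      have a3 : π y * (π c * π t * (π c)⁻¹ * (π t)⁻¹) = (π c * π t * (π c)⁻¹ * (π t)⁻¹) * π y := by
        rw [← map_inv, ← map_inv, ← map_mul, ← map_mul, ← map_mul]
        refine hab y hyW _ ?_
        rw [show c * t * c⁻¹ * t⁻¹ = c * (t * c⁻¹ * t⁻¹) by group]
        exact W.mul_mem hcW (h.W_normal.conj_mem _ (W.inv_mem hcW) t)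
      have e4 : (π c * π t * (π c)⁻¹ * (π t)⁻¹) * (π y * π t * (π y)⁻¹ * (π t)⁻¹) = π y * π t * (π y)⁻¹ * (π t)⁻¹ := by
        conv_rhs => rw [← e3]
        calc π c * π t * (π c)⁻¹ * (π t)⁻¹ * (π y * π t * (π y)⁻¹ * (π t)⁻¹)
            = (π c * π t * (π c)⁻¹ * (π t)⁻¹ * π y) * (π t * (π y)⁻¹ * (π t)⁻¹) := by group
          _ = _ := by rw [← a3]; group
      exact mul_eq_right.1 e4
  haveI : Fact (Nat.Prime 2) := ⟨Nat.prime_two⟩
  haveI := h.isTwo.isNilpotent
  obtain ⟨n, hn⟩ := Group.IsNilpotent.nilpotent T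
  exact hfix x (hW n _ (hTW x) (hn ▸ Subgroup.mem_top _))

theorem eq_W (V C : Subgroup T) (hV : Nat.card V = 2 ^ 11) (hCmem : ∀ x, x ∈ C ↔ x ∈ V ∧ ∀ v ∈ V, v * x = x * v)
    (hC : Nat.card C ≤ 8) (hsq : ∀ v ∈ V, v * v ∈ C) (hcm : ∀ u ∈ V, ∀ v ∈ V, u * v * u⁻¹ * v⁻¹ ∈ C) : V = W := by
  classical
  haveI := h.W_normal
  obtain ⟨z, a, b, κ, σ, ⟨hz, hz1, ha, ha', hb, hb'⟩, hact, hmul, hκW, hκσ, hσ⟩ := h.exists_coordinates
  have hWne : ¬ W ≤ Z 3 := fun hle => by
    have := Subgroup.card_le_of_le hle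
    rw [h.sizes.2.2.1, h.card_Z (by omega)] at this
    norm_num at this
  obtain ⟨χ, e, he, heW, hχe, hadd, hM, hker, -, -⟩ :=
    h.card_W_le le_rfl (fun w hw => h.sq_mem hw) σ (fun t => ⟨κ t, hσ t⟩) hWne
  -- elements of `W` fixed by a non-trivial coset modulo `Z₃`
  have hfixcard : ∀ t, t ∉ W → ∀ K : Subgroup T, K ≤ W → (∀ w ∈ K, t * w * t⁻¹ * w⁻¹ ∈ Z 3) → Nat.card K ≤ 2 ^ 7 := by
    intro t ht K hK hfix
    have hg : κ t ≠ (0, 0, 0) := fun e => ht ((hκW t).2 e)
    obtain ⟨hlen, horb⟩ := reps_spec (κ t) hg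
    let R := (reps (κ t)).toFinset
    have hconjW : ∀ u ∈ W, ∀ v ∈ W, χ (u⁻¹ * v * u) = χ v := by
      intro u hu v hv
      have h1 := hadd u hu _ (W.mul_mem (W.mul_mem (W.inv_mem hu) hv) hu)
      rw [show u * (u⁻¹ * v * u) = v * u by group, hadd v hv u hu] at h1
      have h2 : ∀ p q r : ZMod 2, p + q = q + r → r = p := by decide
      exact h2 _ _ _ h1
    have hinv : ∀ w ∈ K, ∀ i, coord χ σ w (dmul (κ t) i) = coord χ σ w i := by
      intro w hw i
      have hu : (σ (dmul (κ t) i))⁻¹ * (t * σ i) ∈ W := by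
        have := hσ (t * σ i)
        rwa [hmul, hκσ] at this
      have hm := hfix w hw
      set u := (σ (dmul (κ t) i))⁻¹ * (t * σ i) with hud
      set k := σ (dmul (κ t) i) with hk
      set m := t * w * t⁻¹ * w⁻¹ with hmd
      show χ (k⁻¹ * w * k) = χ ((σ i)⁻¹ * w * σ i)
      have hs : σ i = t⁻¹ * k * u := by rw [hud]; group
      rw [show (σ i)⁻¹ * w * σ i = u⁻¹ * ((k⁻¹ * m * k) * (k⁻¹ * w * k)) * u by rw [hs, hmd]; group,
        hconjW u hu _ (W.mul_mem (h.Z3_le ((inferInstance : (Z 3).Normal).conj_mem' m hm k)) (h.W_normal.conj_mem' w (hK hw) k)),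
        hadd _ (h.Z3_le ((inferInstance : (Z 3).Normal).conj_mem' m hm k)) _ (h.W_normal.conj_mem' w (hK hw) k),
        hM _ ((inferInstance : (Z 3).Normal).conj_mem' m hm k), zero_add]
    let ψ : K →* Multiplicative (R → ZMod 2) := MonoidHom.mk' (fun w => Multiplicative.ofAdd fun i => coord χ σ w i) <| by
      intro v w
      rw [← ofAdd_add]
      refine congrArg Multiplicative.ofAdd (funext fun i => ?_)
      exact congrFun (coord_mul W hadd σ (hK v.2) (hK w.2)) i
    have hkle : Nat.card ψ.ker ≤ 8 := by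
      refine le_trans ?_ (le_of_eq (h.card_Z (i := 3) (by omega)))
      refine Nat.card_le_card_of_injective (fun w => ⟨((w : K) : T), ?_⟩) ?_
      · refine hker _ (hK (w : K).2) (funext fun i => ?_)
        have h0 : ∀ j ∈ reps (κ t), coord χ σ ((w : K) : T) j = 0 := fun j hj =>
          congrFun (congrArg Multiplicative.toAdd (MonoidHom.mem_ker.1 w.2)) ⟨j, List.mem_toFinset.2 hj⟩
        rcases horb i with hi | hi | hi
        · exact h0 i hi
        · rw [← hinv _ (w : K).2 i]; exact h0 _ hi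
        · rw [← hinv _ (w : K).2 i, ← hinv _ (w : K).2 (dmul (κ t) i)]; exact h0 _ hi
      · intro v w e
        exact Subtype.ext (Subtype.ext (congrArg (fun x : Z 3 => (x : T)) e))
    rw [← ψ.ker.card_mul_index, Subgroup.index_ker]
    refine (Nat.mul_le_mul hkle (Subgroup.card_le_card_group _)).trans ?_
    rw [Nat.card_congr Multiplicative.toAdd, Nat.card_fun, Nat.card_zmod, Nat.card_eq_fintype_card, Fintype.card_coe]
    have hR : R.card ≤ 4 := hlen ▸ List.toFinset_card_le _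
    calc 8 * 2 ^ R.card ≤ 8 * 2 ^ 4 := Nat.mul_le_mul_left _ (Nat.pow_le_pow_right two_pos hR)
      _ = 2 ^ 7 := by norm_num
  set K := V ⊓ W with hK
  have hKidx : Nat.card V ≤ 8 * Nat.card K := by
    have h1 := (W.subgroupOf V).card_mul_index
    have h2 : (W.subgroupOf V).index ≤ 8 := by
      rw [← h.sizes.2.1]
      exact Nat.le_of_dvd (by rw [h.sizes.2.1]; norm_num) (Subgroup.relIndex_dvd_index_of_normal W V)
    have h3 : Nat.card (W.subgroupOf V) = Nat.card K := by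
      rw [hK, ← Subgroup.inf_subgroupOf_left]
      exact Nat.card_congr (Subgroup.subgroupOfEquivOfLe inf_le_left).toEquiv
    rw [h3] at h1
    rw [← h1, mul_comm 8]
    exact Nat.mul_le_mul_left _ h2
  rw [hV] at hKidx
  have hKbig : 2 ^ 8 ≤ Nat.card K := by omega
  by_contra hne
  obtain ⟨t, htV, htW⟩ : ∃ t ∈ V, t ∉ W := by
    by_contra hcon
    push Not at hcon
    exact hne (Subgroup.eq_of_le_of_card_ge hcon (by rw [hV, h.sizes.2.2.1]))
  have hCV : ∀ x ∈ C, x ∈ V := fun x hx => ((hCmem x).1 hx).1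
  have hCW : C ≤ W := by
    intro s hs
    by_contra hsW
    have := hfixcard s hsW K inf_le_right fun w hw => by
      rw [← ((hCmem s).1 hs).2 w hw.1, mul_inv_cancel_right, mul_inv_cancel]; exact (Z 3).one_mem
    omega
  -- some square is outside `Z₂`
  obtain ⟨x, hx, hx2⟩ : ∃ x ∈ K, x * x ∉ Z 2 := by
    by_contra hcon
    push Not at hcon
    let Q : Subgroup T := K ⊔ Z 3
    have hQsq : ∀ q ∈ Q, q * q ∈ Z 2 := by
      intro q hq
      have hq' : q ∈ (↑(K ⊔ Z 3) : Set T) := hq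
      rw [Subgroup.mul_normal] at hq'
      obtain ⟨k, hk, m, hm, rfl⟩ := hq'
      show k * m * (k * m) ∈ Z 2
      rw [(show Commute m k from (h.comm_Z3 hk.2 hm).symm).mul_mul_mul_comm, h.Z3_sq hm, mul_one]
      exact hcon k hk
    have hQW : Q ≤ W := sup_le inf_le_right h.Z3_le
    obtain ⟨H, -, hHQ, hbH, hor, -⟩ := exists_max_avoid Q (Z 2)
      ((ucs_le_succ 2).trans le_sup_right) hQsq
      (fun w _ m hm => (inferInstance : (Z 2).Normal).conj_mem m hm w) (Subgroup.mem_sup_right hb) hb'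
    have h1 : Nat.card K ≤ Nat.card Q := Subgroup.card_le_of_le le_sup_left
    have h2 : Nat.card Q ≤ 2 * Nat.card H := card_le_two_mul b fun x hx => hor x hx
    refine hbH (h.le_of_index (hHQ.trans hQW) ?_ hb)
    rw [h.sizes.2.2.1]
    omega
  set c := x * x with hc
  have hcC : c ∈ C := hsq x hx.1
  have hc3 : c ∈ Z 3 := h.sq_mem hx.2
  -- the cosets of `V` fix `c`
  have hsmall : ∀ v ∈ V, v ∈ W ∨ ((κ v).2.2 = 0 ∧ κ v ≠ (0, 1, 0)) := by
    intro v hv
    rw [or_iff_not_imp_left]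
    intro hvW
    have hcomm : v * c = c * v := ((hCmem c).1 hcC).2 v hv
    have hbc : b * c ∈ Z 2 := (h.mem_or (i := 2) (by omega) hb hb' hc3).resolve_left hx2
    obtain ⟨f1, f2⟩ := hact v
    have hz2 : ∀ n : ℕ, z ^ n ∈ Z 1 := fun n => (Z 1).pow_mem hz n
    have e3 : v * (b * c) * v⁻¹ * (b * c)⁻¹ = a ^ ((κ v).2.2 : ℕ) * z ^ ((κ v).2.1 : ℕ) := by
      calc v * (b * c) * v⁻¹ * (b * c)⁻¹ = (v * b * v⁻¹) * (v * c * v⁻¹) * c⁻¹ * b⁻¹ := by group
        _ = b * (a ^ ((κ v).2.2 : ℕ) * z ^ ((κ v).2.1 : ℕ)) * b⁻¹ := by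
          rw [hcomm, mul_inv_cancel_right, f2]; group
        _ = _ := by
          rw [h.comm_Z3 (h.Z3_le hb) ((Z 3).mul_mem ((Z 3).pow_mem (ucs_le_succ 2 ha) _)
            (Subgroup.upperCentralSeries_mono T (by norm_num) (hz2 _))), mul_inv_cancel_right]
    constructor
    · by_contra hp
      have hp' : (κ v).2.2 = 1 := by omega
      have := h.conj_comm_mem hbc v
      rw [e3, hp'] at this
      refine ha' ?_
      simpa using (Z 1).mul_mem this ((Z 1).inv_mem (hz2 ((κ v).2.1 : ℕ)))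
    · intro hk
      rw [hk] at e3 f1
      simp only [Fin.val_zero, pow_zero, mul_one, one_mul, Fin.val_one, pow_one] at e3 f1
      have hfix2 : v * (b * c) = (b * c) * v := by
        rcases h.mem_or (i := 1) (by omega) ha ha' hbc with e' | e'
        · exact h.central e' v
        · have h1 : Commute v a := mul_inv_eq_iff_eq_mul.1 f1
          have h2 : Commute v (a * (b * c)) := h.central e' v
          simpa using (h1.inv_right.mul_right h2).eq
      rw [hfix2, mul_inv_cancel_right, mul_inv_cancel] at e3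
      exact hz1 e3.symm
  have htwo : Nat.card V ≤ 2 * Nat.card K := by
    refine card_le_two_mul t⁻¹ fun v hv => ?_
    rw [or_iff_not_imp_left]
    intro hvK
    have hvW : v ∉ W := fun e => hvK ⟨hv, e⟩
    refine ⟨V.mul_mem (V.inv_mem htV) hv, ?_⟩
    by_contra hne'
    obtain ⟨p1, q1⟩ := (hsmall t htV).resolve_left htW
    obtain ⟨p2, q2⟩ := (hsmall v hv).resolve_left hvW
    have hdiff : κ t ≠ κ v := by
      intro e
      have h1 := hσ t
      have h2 := hσ v
      rw [← e] at h2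
      refine hne' ?_
      rw [show t⁻¹ * v = ((σ (κ t))⁻¹ * t)⁻¹ * ((σ (κ t))⁻¹ * v) by group]
      exact W.mul_mem (W.inv_mem h1) h2
    have h3 := moves_top _ _ (fun e => htW ((hκW t).2 e)) (fun e => hvW ((hκW v).2 e)) hdiff p1 p2 q1 q2
    rw [← hmul] at h3
    rcases hsmall _ (V.mul_mem htV hv) with h4 | ⟨-, h4⟩
    · rw [(hκW _).1 h4] at h3
      exact absurd h3 (by decide)
    · exact h4 h3
  rw [hV] at htwo
  -- commutation with `t`
  let f : K →* C := MonoidHom.mk' (fun w => ⟨t * (w : T) * t⁻¹ * (w : T)⁻¹, hcm t htV _ w.2.1⟩) <| by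
    intro v w
    apply Subtype.ext
    show t * ((v : T) * w) * t⁻¹ * ((v : T) * w)⁻¹ = t * (v : T) * t⁻¹ * (v : T)⁻¹ * (t * (w : T) * t⁻¹ * (w : T)⁻¹)
    have := ((hCmem _).1 (hcm t htV _ w.2.1)).2 (v : T) v.2.1
    calc t * ((v : T) * w) * t⁻¹ * ((v : T) * w)⁻¹
        = t * (v : T) * t⁻¹ * ((t * (w : T) * t⁻¹ * (w : T)⁻¹) * (v : T)⁻¹) := by group
      _ = t * (v : T) * t⁻¹ * (v : T)⁻¹ * ((v : T) * (t * (w : T) * t⁻¹ * (w : T)⁻¹)) * (v : T)⁻¹ := by group
      _ = _ := by rw [this]; group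
  let M : Subgroup K := ((Z 3).subgroupOf C).comap f
  have hMcard : Nat.card M ≤ 2 ^ 7 := by
    rw [Nat.card_congr (M.equivMapOfInjective K.subtype K.subtype_injective).toEquiv]
    refine hfixcard t htW _ ((Subgroup.map_subtype_le _).trans inf_le_right) ?_
    rintro _ ⟨w, hw, rfl⟩
    exact hw
  have hMidx : M.index ≤ 4 := by
    have h1 : M.index ∣ ((Z 3).subgroupOf C).index := by
      rw [Subgroup.index_comap]
      haveI : ((Z 3).subgroupOf C).Normal := inferInstance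
      exact Subgroup.relIndex_dvd_index_of_normal _ _
    have h2 := ((Z 3).subgroupOf C).card_mul_index
    have h3 : 2 ≤ Nat.card ((Z 3).subgroupOf C) := by
      refine Finite.one_lt_card_iff_nontrivial.2 ⟨⟨⟨⟨c, hcC⟩, hc3⟩, 1, fun e => hx2 ?_⟩⟩
      have : c = 1 := congrArg (fun y : (Z 3).subgroupOf C => ((y : C) : T)) e
      rw [this]
      exact (Z 2).one_mem
    have h4 := Nat.le_of_dvd (Nat.pos_of_ne_zero Subgroup.index_ne_zero_of_finite) h1
    nlinarith [Nat.mul_le_mul h3 (le_refl ((Z 3).subgroupOf C).index)]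
  have := M.card_mul_index
  nlinarith [Nat.mul_le_mul hMcard hMidx]

end Hyp
end CfsgLib.CoreFree.Rudvalis
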